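import Cfsg.Agent.Lib.SPL.Defs
import Cfsg.Agent.Lib.H81.FeitHigB
import Cfsg.Agent.Lib.LieBN.Bld
import Cfsg.Agent.Lib.LieBN.SBN

set_option autoImplicit false

namespace H11.SPL

open MulAction Subgroup Cfsg

universe u

namespace BN1

open H13 H13.BN H62.St H62.LB H81.FH

variable {G : Type u} [Group G] {P : BNPair G}

/-- an involution exchanging the two types -/
structure Op (P : BNPair G) (op : P.S → P.S) (n : ℕ) : Prop where
  ne : ∀ c, op c ≠ c
  two : ∀ c d, d = c ∨ d = op c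
  ord : ∀ c, orderOf (gen P c * gen P (op c)) = n

/-- points and lines -/
abbrev Vx (P : BNPair G) : Type u := Σ c : P.S, G ⧸ par P {c}

/-- the vertex of type `c` of the chamber `g B` -/
def vx (c : P.S) (g : G) : Vx P := ⟨c, (g : G ⧸ par P {c})⟩

theorem vx_eq {c d : P.S} {g h : G} : vx c g = vx d h ↔ c = d ∧ g⁻¹ * h ∈ par P {c} := by
  refine ⟨fun e => ?_, ?_⟩
  · obtain rfl : c = d := congrArg Sigma.fst e
    exact ⟨rfl, QuotientGroup.eq.1 (eq_of_heq (Sigma.mk.inj e).2)⟩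
  · rintro ⟨rfl, e⟩
    exact congrArg (Sigma.mk c) (QuotientGroup.eq.2 e)

theorem smul_vx (k : G) (c : P.S) (g : G) : k • vx c g = vx c (k * g) := rfl

theorem exists_vx (x : Vx P) : ∃ c g, x = vx c g := by
  obtain ⟨c, x⟩ := x
  obtain ⟨g, rfl⟩ := QuotientGroup.mk_surjective x
  exact ⟨c, g, rfl⟩

attribute [irreducible] vx

theorem vx_B (c : P.S) {g h : G} (e : g⁻¹ * h ∈ P.B) : vx c g = vx c h := vx_eq.2 ⟨rfl, mem_par_singleton.2 (.inl e)⟩

/-- incidence -/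
def Adj (op : P.S → P.S) (x y : Vx P) : Prop := ∃ c g, x = vx c g ∧ y = vx (op c) g

variable {op : P.S → P.S} {n : ℕ} (h : Op P op n)
include h

theorem Op.op_op (c : P.S) : op (op c) = c := ((h.two c _).resolve_right (h.ne _))

theorem Op.mem_B {c : P.S} {g : G} (h1 : g ∈ par P {c}) (h2 : g ∈ par P {op c}) : g ∈ P.B := by
  by_contra hg
  exact h.ne c (gen_injective P (eq_of_mem_cell ((mem_par_singleton.1 h2).resolve_left hg)
    ((mem_par_singleton.1 h1).resolve_left hg)))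

theorem Op.len {c : P.S} {k : ℕ} (hk : k ≤ n) : len (gen P) (alt (gen P c) (gen P (op c)) k) = k :=
  len_alt (invGen P) (h.two c) gen_ne_one (h.ord c ▸ hk)

theorem Op.walk (k : ℕ) (hk : k ≤ n) : ∀ (c : ℕ → P.S) (g : ℕ → G), (∀ j, c (j + 1) = op (c j)) →
    (∀ j, (g j)⁻¹ * g (j + 1) ∈ cell P (gen P (c j))) →
    (g 0)⁻¹ * g k ∈ cell P (alt (gen P (c 0)) (gen P (op (c 0))) k) := by
  induction k with
  | zero => intro c g _ _; simp [alt_zero, mem_cell_one]
  | succ k ih =>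
    intro c g h1 h2
    have h3 := ih (by omega) (fun j => c (j + 1)) (fun j => g (j + 1)) (fun j => h1 _) fun j => h2 _
    have h4 := h.len (c := c 0) hk
    have h5 := h.len (c := op (c 0)) (Nat.le_of_succ_le hk)
    simp only [zero_add, h1 0, h.op_op] at h3 h5
    rw [alt_succ] at h4 ⊢
    simpa [mul_assoc] using gen_mul_mem_of_lt (by omega) (h2 0) h3

theorem Op.line {x : ℤ → Vx P} (hx : Line (Adj op) x) : ∃ (c : ℤ → P.S) (g : ℤ → G), (∀ j, x j = vx (c j) (g j)) ∧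
    (∀ j, x (j + 1) = vx (op (c j)) (g j)) ∧ (∀ j, c (j + 1) = op (c j)) ∧
    (∀ (i : ℤ) (k : ℕ), k ≤ n → (g i)⁻¹ * g (i + k) ∈ cell P (alt (gen P (op (c i))) (gen P (c i)) k)) ∧
    (∀ (i : ℤ) (k : ℕ), k ≤ n → (g i)⁻¹ * g (i - k) ∈ cell P (alt (gen P (c i)) (gen P (op (c i))) k)) := by
  choose c g h1 h2 using hx.adj
  have h3 := fun j => vx_eq.1 ((h2 j).symm.trans (h1 (j + 1)))
  have h4 : ∀ j, (g j)⁻¹ * g (j + 1) ∈ cell P (gen P (op (c j))) := fun j =>
    (mem_par_singleton.1 (h3 j).2).resolve_left fun e => hx.ne j (by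
      rw [show j + 2 = j + 1 + 1 by ring, h2, h1, ← (h3 j).1, h.op_op]; exact vx_B _ e)
  refine ⟨c, g, h1, h2, fun j => (h3 j).1.symm, fun i k hk => ?_, fun i k hk => ?_⟩
  · simpa [h.op_op] using h.walk k hk (fun j => op (c (i + j))) (fun j => g (i + j))
      (fun j => by rw [Nat.cast_succ, ← add_assoc, ← (h3 _).1]) fun j => by
      rw [Nat.cast_succ, ← add_assoc]; exact h4 _
  · simpa using h.walk k hk (fun j => c (i - j)) (fun j => g (i - j))
      (fun j => by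
        rw [show i - j = i - (j + 1 : ℕ) + 1 by push_cast; ring, ← (h3 _).1, h.op_op]) fun j => by
      have := inv_mem_cell_gen (h4 (i - (j + 1 : ℕ)))
      rw [(h3 _).1, show i - (j + 1 : ℕ) + 1 = i - j by push_cast; ring] at this
      simpa using this

theorem Op.girth {x : ℤ → Vx P} (hx : Line (Adj op) x) (k : ℕ) (k0 : 0 < k) (hk : k < 2 * n) : x 0 ≠ x k := by
  intro e
  obtain ⟨c, g, h1, h2, h3, h4, h5⟩ := h.line hx
  obtain ⟨k, rfl⟩ := Nat.exists_eq_add_of_lt k0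
  have e1 := vx_eq.1 (((h1 0).symm.trans e).trans (by simpa using h2 k))
  rcases k with _ | k
  · exact h.ne _ e1.1.symm
  obtain ⟨r, m, r1, r2, r3⟩ : ∃ r m : ℕ, r + m = k + 1 ∧ m + 1 ≤ r ∧ r ≤ m + 2 :=
    ⟨k + 2 - (k + 2) / 2, (k + 2) / 2 - 1, by omega, by omega, by omega⟩
  have e2 : c (k + 1 : ℕ) = op (c 0) := by rw [e1.1, h.op_op]
  have a1 := h4 0 r (by omega)
  have a2 := h5 (k + 1 : ℕ) m (by omega)
  rw [e2, h.op_op, show ((k + 1 : ℕ) : ℤ) - m = 0 + r by omega] at a2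
  have sq := (invGen P).sq
  have o1 := h.ord (op (c 0))
  rw [h.op_op] at o1
  have ne := fun l l' a b => alt_ne (sq (op (c 0))) (sq (c 0)) (gen_ne_one _) (gen_ne_one _) (l := l) (l' := l') a
    (o1 ▸ b)
  rcases mem_par_singleton.1 e1.2 with e3 | e3
  · exact (ne r m (by omega) (by omega)).1 (eq_of_mem_cell a1 (by simpa [mul_assoc] using mul_mem_cell e3 a2))
  · have l1 := h.len (c := c 0) (k := m + 1) (by omega)
    have l2 := h.len (c := op (c 0)) (k := m) (by omega)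
    rw [h.op_op] at l2
    have a3 := gen_mul_mem_of_lt (by rw [← alt_succ]; omega) e3 a2
    rw [← alt_succ] at a3
    have a4 := eq_of_mem_cell a1 (by simpa [mul_assoc] using a3)
    rcases r2.eq_or_lt with rfl | r4
    · refine (ne (m + 2) m (by omega) (by omega)).2 ?_
      rw [alt_succ, ← a4, alt_succ, (invGen P).cancel_left]
    · exact (ne r (m + 1) r4 (by omega)).2 a4

theorem Op.apt (c : P.S) (g : G) : ∃ x, Apt (Adj op) n x ∧ x 0 = vx c g ∧ x 1 = vx (op c) g ∧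
    ∀ i, ∃ d, ∃ m ∈ P.N, x i = vx d (g * m) := by
  let ρ : G := op c * c
  let x : ℤ → Vx P := fun i => vx (if i % 2 = 0 then c else op c) (g * ρ ^ (i / 2))
  have x0 : ∀ k, x (2 * k) = vx c (g * ρ ^ k) := fun k => by simp [x]
  have x1 : ∀ k, x (2 * k + 1) = vx (op c) (g * ρ ^ k) := fun k => by
    simp only [x, show (2 * k + 1) % 2 ≠ 0 by omega, show (2 * k + 1) / 2 = k by omega, if_false]
  have m1 : ∀ d : P.S, (d : G) ∈ par P {d} := fun d => mem_par_of_cell (Set.mem_singleton _) (coe_mem_cell_gen P d)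
  have m2 : ∀ d : P.S, (op d : G) ∉ par P {d} := fun d e => gen_not_mem _ (h.mem_B e (m1 _))
  have e1 : ∀ k : ℤ, (g * ρ ^ k)⁻¹ * (g * ρ ^ (k + 1)) = op c * c := fun k => by
    rw [zpow_add_one, ← mul_assoc g, inv_mul_cancel_left]
  have hρ : ρ ^ n ∈ P.B := by
    have := (mk_eq_one_iff P (n := (genN P (op c) * genN P c) ^ n)).1 (by
      rw [QuotientGroup.mk_pow, QuotientGroup.mk_mul, mk_genN, mk_genN, ← h.ord (op c), h.op_op, pow_orderOf_eq_one])
    exact this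
  refine ⟨x, ⟨⟨fun i => ?_, fun i => ?_⟩, fun i => ?_⟩, by simpa using x0 0, by simpa using x1 0, fun i =>
    ⟨_, _, zpow_mem (mul_mem (coe_mem_N _) (coe_mem_N _)) _, rfl⟩⟩
  · obtain ⟨k, rfl | rfl⟩ := Int.even_or_odd' i
    · exact ⟨c, _, x0 k, x1 k⟩
    · refine ⟨op c, g * ρ ^ k * op c, (x1 k).trans (vx_eq.2 ⟨rfl, by rw [inv_mul_cancel_left]; exact m1 _⟩), ?_⟩
      rw [show 2 * k + 1 + 1 = 2 * (k + 1) by ring, x0, h.op_op]
      refine (vx_eq.2 ⟨rfl, ?_⟩).symm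
      rw [mul_inv_rev, mul_assoc, e1, inv_mul_cancel_left]
      exact m1 c
  · obtain ⟨k, rfl | rfl⟩ := Int.even_or_odd' i
    · rw [show 2 * k + 2 = 2 * (k + 1) by ring, x0, x0, Ne, vx_eq, e1]
      exact fun e => m2 c ((mul_mem_cancel_right (m1 c)).1 e.2)
    · rw [show 2 * k + 1 + 2 = 2 * (k + 1) + 1 by ring, x1, x1, Ne, vx_eq, e1]
      exact fun e => m2 (op c) (by rw [h.op_op]; exact (mul_mem_cancel_left (m1 _)).1 e.2)
  · have e2 : ∀ k : ℤ, (g * ρ ^ (k + n))⁻¹ * (g * ρ ^ k) ∈ P.B := fun k => by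
      rw [zpow_add, zpow_natCast, ← mul_assoc g, mul_inv_rev (g * ρ ^ k), inv_mul_cancel_right]; exact inv_mem hρ
    obtain ⟨k, rfl | rfl⟩ := Int.even_or_odd' i
    · rw [show 2 * k + 2 * n = 2 * (k + n) by ring, x0, x0]; exact vx_B _ (e2 k)
    · rw [show 2 * k + 1 + 2 * n = 2 * (k + n) + 1 by ring, x1, x1]; exact vx_B _ (e2 k)

theorem Op.geo (h3 : 3 ≤ n) : Geo (Adj op) n where
  symm := by rintro _ _ ⟨c, g, rfl, rfl⟩; exact ⟨op c, g, rfl, by rw [h.op_op]⟩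
  three := h3
  thick a b c := by
    obtain ⟨d, g, rfl⟩ := exists_vx a
    obtain ⟨x, hx, y, hy, hxy⟩ := exists_gen_mul_gen d
    have A : ∀ k ∈ cell P (gen P d), Adj op (vx d g) (vx (op d) (g * k)) := fun k hk =>
      ⟨d, _, vx_eq.2 ⟨rfl, by simpa using mem_par_of_cell (Set.mem_singleton _) hk⟩, rfl⟩
    have N : ∀ k l : G, k⁻¹ * l ∈ cell P (gen P d) → vx (op d) k ≠ vx (op d) l := fun k l hk e =>
      not_mem_B_of_cell hk (h.mem_B (mem_par_of_cell (Set.mem_singleton _) hk) (vx_eq.1 e).2)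
    have n1 := N g (g * x⁻¹) (by simpa using inv_mem_cell_gen hx)
    have n2 := N g (g * y) (by simpa using hy)
    have n3 := N (g * x⁻¹) (g * y) (by simpa [mul_assoc] using hxy)
    have c1 : Adj op (vx d g) (vx (op d) g) := ⟨d, g, rfl, rfl⟩
    have c2 := A _ (inv_mem_cell_gen hx)
    have c3 := A _ hy
    generalize vx (op d) g = u, vx (op d) (g * x⁻¹) = v, vx (op d) (g * y) = w at n1 n2 n3 c1 c2 c3
    by_cases e1 : u ≠ b ∧ u ≠ c
    · exact ⟨u, c1, e1⟩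
    by_cases e2 : v ≠ b ∧ v ≠ c
    · exact ⟨v, c2, e2⟩
    refine ⟨w, c3, ?_⟩
    simp only [not_and_or, not_not] at e1 e2
    rcases e1 with rfl | rfl <;> rcases e2 with rfl | rfl
    exacts [absurd rfl n1, ⟨n2.symm, n3.symm⟩, ⟨n3.symm, n2.symm⟩, absurd rfl n1]
  girth x hx := h.girth hx
  apt := by
    rintro _ _ ⟨c, g, rfl, rfl⟩
    obtain ⟨x, h1, h2, h3, -⟩ := h.apt c g
    exact ⟨x, h1, h2, h3⟩
  conn S hS := by
    rintro ⟨a, ha⟩
    have A : ∀ c g, vx c g ∈ S → ∀ d, vx d g ∈ S := fun c g hg d => by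
      rcases h.two c d with rfl | rfl
      · exact hg
      · exact hS _ hg _ ⟨c, g, rfl, rfl⟩
    let K : Subgroup G :=
      { carrier := {k | ∀ g, (∀ d, vx d g ∈ S) ↔ ∀ d, vx d (g * k) ∈ S}
        one_mem' := fun g => by simp
        mul_mem' := fun {k l} hk hl g => by rw [← mul_assoc]; exact (hk g).trans (hl _)
        inv_mem' := fun {k} hk g => by simpa using (hk (g * k⁻¹)).symm }
    have B : ∀ c, par P {c} ≤ K := fun c k hk g => by
      have e : vx c g = vx c (g * k) := vx_eq.2 ⟨rfl, by simpa using hk⟩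
      exact ⟨fun hg => A c _ (e ▸ hg c), fun hg => A c _ (e ▸ hg c)⟩
    obtain ⟨c, g, rfl⟩ := exists_vx a
    have C : (⊤ : Subgroup G) ≤ K := parabolic_S (P := P) ▸ parabolic_le
      (fun b hb => B c (mem_par_singleton.2 (.inl hb))) fun s hs =>
        B ⟨s, hs⟩ (mem_par_of_cell (Set.mem_singleton _) (coe_mem_cell_gen P ⟨s, hs⟩))
    refine Set.eq_univ_of_forall fun v => ?_
    obtain ⟨d, k, rfl⟩ := exists_vx v
    simpa using (C (mem_top (g⁻¹ * k)) g).1 (A c g ha) d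

theorem Op.mem_St {c : P.S} {g k : G} : k ∈ St G (vx c g) (vx (op c) g) ↔ g⁻¹ * k * g ∈ P.B := by
  rw [SPL.mem_St, smul_vx, smul_vx, eq_comm, vx_eq, eq_comm (b := vx _ g), vx_eq, ← mul_assoc]
  exact ⟨fun e => h.mem_B e.1.2 e.2.2, fun e =>
    ⟨⟨rfl, mem_par_singleton.2 (.inl e)⟩, rfl, mem_par_singleton.2 (.inl e)⟩⟩

omit h in
theorem exists_F {F : Subgroup G} (hn : P.B ≤ normalizer (F : Set G)) (hs : F ⊔ (P.B ⊓ P.N) = P.B) {w : Weyl P}
    {g g' : G} (hg : g ∈ cell P w) (hg' : g' ∈ cell P w) : ∃ u ∈ F, (u * g)⁻¹ * g' ∈ P.B := by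
  obtain ⟨m, rfl⟩ := QuotientGroup.mk_surjective w
  have key : ∀ g ∈ cell P (QuotientGroup.mk m), ∃ f ∈ F, (f * m)⁻¹ * g ∈ P.B := fun g hg => by
    obtain ⟨x, hx, y, hy, rfl⟩ := (mem_cell_mk P).1 hg
    have : x ∈ ((F ⊔ (P.B ⊓ P.N) : Subgroup G) : Set G) := hs.ge hx
    rw [coe_mul_of_right_le_normalizer_left _ _ (inf_le_left.trans hn)] at this
    obtain ⟨f, hf, t, ht, rfl⟩ := this
    refine ⟨f, hf, ?_⟩
    simpa [mul_assoc] using mul_mem (P.conj_mem _ (inv_mem m.2) t ht) hy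
  obtain ⟨f, hf, e⟩ := key g hg
  obtain ⟨f', hf', e'⟩ := key g' hg'
  exact ⟨f' * f⁻¹, mul_mem hf' (inv_mem hf), by simpa [mul_assoc] using mul_mem (inv_mem e) e'⟩

end BN1

open H13 H13.BN H62.St H62.LB H81.FH BN1 in
/-- the generalized polygon of a split (B,N)-pair of rank two -/
theorem exists_pol {G : Type u} [Group G] [Finite G] (P : BNPair G) (h2 : P.rank = 2)
    (hirr : P.Irreducible) {F : Subgroup G} (hF : F ≤ P.B) (hn : P.B ≤ normalizer (F : Set G))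
    (hnil : Group.IsNilpotent F) (hs : F ⊔ (P.B ⊓ P.N) = P.B) :
    ∃ (V : Type u) (_ : MulAction G V) (_ : Finite V) (adj : V → V → Prop) (n : ℕ) (x : ℤ → V),
      Pol0 G adj n ∧ n ≤ 8 ∧ Apt adj n x ∧ St G (x 0) (x 1) = P.B ∧
        ∀ d ∈ P.B ⊓ P.N, ∀ i, d • x i = x i := by
  classical
  obtain ⟨a, b, hab, hu⟩ := Nat.card_eq_two_iff.1 h2
  have h0 : ∀ c, c = a ∨ c = b := fun c => hu.ge (Set.mem_univ c)
  have h : Op P (fun c => if c = a then b else a) (orderOf (gen P a * gen P b)) := by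
    refine ⟨fun c => ?_, fun c d => ?_, fun c => ?_⟩
    · rcases h0 c with rfl | rfl <;> simp [hab, hab.symm]
    · rcases h0 c with rfl | rfl <;> rcases h0 d with rfl | rfl <;> simp [hab.symm]
    · rcases h0 c with rfl | rfl
      · simp
      · rw [if_neg hab.symm, ← orderOf_inv, mul_inv_rev, (invGen P).inv_eq, (invGen P).inv_eq]
  have h8 := feit_higman P h2
  rw [card_eq (invGen P) h0 gen_ne_one] at h8
  have h3 : 3 ≤ orderOf (gen P a * gen P b) := by
    obtain ⟨s, hs, t, ht, hst⟩ := exists_not_comm hirr (K := {a}) ⟨a, rfl⟩ fun e => hab (e.ge (Set.mem_univ b)).symm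
    obtain rfl : s = a := hs
    obtain rfl := (h0 t).resolve_left ht
    by_contra hc
    have h4 := orderOf_pos (gen P s * gen P t)
    have h5 : (gen P s * gen P t) ^ 2 = 1 := orderOf_dvd_iff_pow_eq_one.1 (by
      interval_cases orderOf (gen P s * gen P t) <;> norm_num)
    rw [pow_two, mul_eq_one_iff_eq_inv, mul_inv_rev, (invGen P).inv_eq, (invGen P).inv_eq] at h5
    exact hst h5
  generalize orderOf (gen P a * gen P b) = n at *
  generalize (fun c => if c = a then b else a) = op at h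
  obtain ⟨x, x1, x2, x3, x4⟩ := h.apt a 1
  refine ⟨Vx P, inferInstance, inferInstance, Adj op, n, x, ⟨h.geo h3, ?_, ?_⟩, ?_, x1, ?_, fun d hd i => ?_⟩
  · rintro k _ _ ⟨c, g, rfl, rfl⟩
    exact ⟨c, k * g, smul_vx .., smul_vx ..⟩
  · rintro _ _ ⟨c, g, rfl, rfl⟩
    have m : ∀ k, k ∈ F.map (MulAut.conj g).toMonoidHom ↔ g⁻¹ * k * g ∈ F := fun k => by
      rw [mem_map_equiv]; simp
    refine ⟨F.map (MulAut.conj g).toMonoidHom, fun k hk => h.mem_St.2 (hF ((m k).1 hk)), fun k hk l => ?_,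
      Group.nilpotent_of_mulEquiv ((MulAut.conj g).subgroupMap F), fun y z hy hz y0 y1 z0 z1 => ?_⟩
    · refine (m l).trans (((hn (h.mem_St.1 hk)) _).trans (Iff.trans (by simp [mul_assoc]) (m _).symm))
    · have key : ∀ y, Line (Adj op) y → y 0 = vx c g → y 1 = vx (op c) g → ∃ k, g⁻¹ * k ∈
          cell P (alt (gen P (op c)) (gen P c) n) ∧ y n = vx (op^[n] c) k ∧ y (n + 1) = vx (op (op^[n] c)) k := by
        intro y hy y0 y1
        obtain ⟨d, e, h1, h2, h4, h5, -⟩ := h.line hy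
        obtain ⟨rfl, e1⟩ := vx_eq.1 (y0.symm.trans (h1 0))
        have e2 := (vx_eq.1 (y1.symm.trans (h2 0))).2
        have e3 : ∀ j : ℕ, d j = op^[j] (d 0) := fun j => by
          induction j with
          | zero => rfl
          | succ j ih => rw [Nat.cast_succ, h4, ih, Function.iterate_succ_apply']
        exact ⟨e n, by simpa [mul_assoc] using mul_mem_cell (h.mem_B e1 e2) (h5 0 n le_rfl), e3 n ▸ h1 n, e3 n ▸ h2 n⟩
      obtain ⟨k, k1, k2, k3⟩ := key y hy y0 y1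
      obtain ⟨l, l1, l2, l3⟩ := key z hz z0 z1
      obtain ⟨v, hv, e⟩ := exists_F hn hs k1 l1
      have e' : (g * v * g⁻¹ * k)⁻¹ * l ∈ P.B := by simpa [mul_assoc] using e
      exact ⟨g * v * g⁻¹, ⟨v, hv, rfl⟩, by rw [k2, l2, smul_vx]; exact vx_B _ e',
        by rw [k3, l3, smul_vx]; exact vx_B _ e'⟩
  · simp only [Set.mem_insert_iff, Set.mem_singleton_iff] at h8
    omega
  · ext k
    rw [x2, x3, h.mem_St]
    simp
  · obtain ⟨c, m, hm, e⟩ := x4 i
    rw [e, smul_vx]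
    exact (vx_B _ (by simpa [mul_assoc] using P.conj_mem _ (inv_mem hm) d hd)).symm

end H11.SPL
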