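import Cfsg.Agent.Lib.Core.Fitting
import Cfsg.Agent.Lib.LieBN.Bld

set_option autoImplicit false

namespace H11.SPL

open Subgroup Cfsg

universe u

namespace BN2

open H13 H13.BN H62.St H62.LB

variable {G : Type u} [Group G] (P : BNPair G)

/-- the (B,N)-pair of a standard parabolic subgroup -/
def sub (J : Set G) (hJ : J ⊆ P.S) : BNPair (P.parabolic J) where
  B := P.B.subgroupOf _
  N := P.N.subgroupOf _
  S := Subtype.val ⁻¹' J
  sup_eq_top := by
    rw [eq_top_iff, ← subgroupOf_self]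
    conv_lhs => arg 1; unfold BNPair.parabolic
    rw [subgroupOf_sup (B_le_parabolic J) ((closure_le _).2 (subset_parabolic J))]
    exact sup_le_sup_left (comap_mono ((closure_le _).2 (hJ.trans P.subset))) _
  conj_mem n hn t ht := P.conj_mem n hn t ht
  subset s hs := P.subset (hJ hs)
  sq_mem s hs := P.sq_mem s (hJ hs)
  inj s hs t ht e := Subtype.ext (P.inj s (hJ hs) t (hJ ht) e)
  closure_sup := by
    refine le_antisymm (sup_le ((closure_le _).2 fun s hs => P.subset (hJ hs)) inf_le_right)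
      fun n hn => ?_
    have h1 : (QuotientGroup.mk (⟨n, hn⟩ : P.N) : Weyl P) ∈ closure (gen P '' (Subtype.val ⁻¹' J)) :=
      mem_closure_of_mem_cell (coe_mem_cell P ⟨n, hn⟩) (by
        rw [image_preimage_of_subset hJ]; exact n.2)
    obtain ⟨l, hl, e⟩ := (invGen P).exists_word_of_mem_closure h1
    clear h1
    induction l generalizing n with
    | nil => exact mem_sup_right ⟨(mk_eq_one_iff P).1 e.symm, hn⟩
    | cons s l ih =>
      have hs : (s : G) ∈ J := hl s List.mem_cons_self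
      let s' : P.parabolic J := ⟨s, subset_parabolic J hs⟩
      have hn' : s'⁻¹ * n ∈ P.N.subgroupOf (P.parabolic J) :=
        mul_mem (inv_mem (show s' ∈ P.N.subgroupOf _ from P.subset s.2)) hn
      have := ih (n := s'⁻¹ * n) hn' (fun i hi => hl i (List.mem_cons_of_mem _ hi)) (by
        rw [wp_cons, ← eq_inv_mul_iff_mul_eq] at e
        rw [e]
        rfl)
      simpa using mul_mem (mem_sup_left (Subgroup.subset_closure (show s' ∈ Subtype.val ⁻¹' J from hs))) this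
  mul_mem_union s hs n hn b hb := by
    refine (P.mul_mem_union s (hJ hs) n hn b hb).imp (fun e => ?_) fun e => ?_ <;>
    · obtain ⟨x, hx, y, hy, e⟩ := DoubleCoset.mem_doubleCoset.1 e
      exact DoubleCoset.mem_doubleCoset.2 ⟨⟨x, B_le_parabolic J hx⟩, hx, ⟨y, B_le_parabolic J hy⟩, hy,
        Subtype.ext e⟩
  conj_ne s hs e := by
    obtain ⟨b, hb, h⟩ := exists_conj_not_mem (P := P) ⟨s, hJ hs⟩
    exact h (e.le ⟨⟨b, B_le_parabolic J hb⟩, hb, rfl⟩)

theorem norm_of {B U : Subgroup G} (h : ∀ b ∈ B, ∀ u ∈ U, b * u * b⁻¹ ∈ U) :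
    B ≤ normalizer (U : Set G) := fun b hb =>
  mem_normalizer_iff.2 fun x => ⟨h b hb x, fun hx => by simpa [mul_assoc] using h _ (inv_mem hb) _ hx⟩

variable [Finite G]

theorem inf_eq
    (H : ∀ (Γ : Type u) [Group Γ] [Finite Γ] (Q : BNPair Γ), Q.rank = 2 → Q.Irreducible →
      ∀ F : Subgroup Γ, F ≤ Q.B → Q.B ≤ normalizer (F : Set Γ) → Group.IsNilpotent F →
        F ⊔ (Q.B ⊓ Q.N) = Q.B → ∀ d ∈ F, d ∈ Q.N → ∀ g : Γ, g⁻¹ * d * g ∈ Q.B)
    (h2 : 2 ≤ P.rank) (hirr : P.Irreducible) (hcore : P.B.normalCore = ⊥)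
    {F : Subgroup G} (hF : F ≤ P.B) (hn : P.B ≤ normalizer (F : Set G)) (hnil : Group.IsNilpotent F)
    (hH : F ⊔ (P.B ⊓ P.N) = P.B) {d : G} (hd : d ∈ F) (hdN : d ∈ P.N) : d = 1 := by
  have rig : Rigid P Set.univ (fun x => d * x) 1 := by
    refine ⟨fx_mul.2 (by simpa using hF hd), fun s _ y hy => fx_mul.2 ?_⟩
    obtain ⟨_, rfl, t, ⟨ht, hts⟩, hc⟩ := hirr {(s : G)} (Set.singleton_subset_iff.2 s.2)
      (Set.singleton_nonempty _) (by
        haveI : Nontrivial P.S := Finite.one_lt_card_iff_nontrivial.1 h2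
        obtain ⟨t, ht⟩ := exists_ne s
        exact ⟨t, t.2, fun e => ht (Subtype.ext e)⟩)
    have hJ : ({(s : G), t} : Set G) ⊆ P.S := Set.pair_subset s.2 ht
    have hB : P.B ≤ P.parabolic {(s : G), t} := B_le_parabolic _
    have hs' : (s : G) ∈ P.parabolic {(s : G), t} := subset_parabolic _ (Set.mem_insert _ _)
    have ht' : t ∈ P.parabolic {(s : G), t} :=
      subset_parabolic _ (Set.mem_insert_of_mem _ (Set.mem_singleton _))
    have hS : (sub P _ hJ).S = {⟨s, hs'⟩, ⟨t, ht'⟩} := by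
      ext x
      simp [sub, Subtype.ext_iff]
    have hy' : y ∈ P.parabolic {(s : G), t} :=
      mem_of_mem_cell hB (coe_mem_cell_gen P s) (by simpa using hy) hs'
    refine H _ (sub P _ hJ) ?_ ?_ (F.subgroupOf _) (comap_mono hF) (norm_of fun b hb x hx =>
      (mem_normalizer_iff.1 (hn hb) _).1 hx) (H1.isNilpotent_subgroupOf hnil _) ?_ ⟨d, hB (hF hd)⟩ hd hdN
      ⟨y, hy'⟩
    · rw [BNPair.rank, hS, Nat.card_coe_set_eq, Set.ncard_pair]
      exact fun e => hts (congrArg Subtype.val e).symm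
    · rintro K hK ⟨a, ha⟩ ⟨b, hb, hb'⟩
      refine ⟨a, ha, b, ⟨hb, hb'⟩, fun h => hc ?_⟩
      have ha' := hK ha
      rw [hS] at ha' hb
      rcases ha' with rfl | rfl <;> rcases hb with rfl | rfl
      · exact absurd ha hb'
      · exact h
      · have h' : t * s * t⁻¹ * (s : G)⁻¹ ∈ P.B := h
        simpa [mul_assoc] using inv_mem h'
      · exact absurd ha hb'
    · exact (subgroupOf_sup (hF.trans hB) (inf_le_left.trans hB)).symm.trans
        (congrArg (fun K : Subgroup G => K.subgroupOf (P.parabolic {(s : G), t})) hH)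
  obtain ⟨w, hw, hl, hr⟩ := exists_longest (invGen P) (exchange P) (Set.univ : Set P.S)
  obtain ⟨n, rfl⟩ := QuotientGroup.mk_surjective w
  have key : ∀ z, z⁻¹ * d * z ∈ P.B := fun z =>
    fx_mul.1 (rigidity (isom_mul d) hw hl hr rig (y := n)
      (fx_mul.2 (by simpa using P.conj_mem _ (inv_mem n.2) d ⟨hF hd, hdN⟩))
      (by simpa using coe_mem_cell P n) (by rw [par_univ]; trivial))
  rw [← mem_bot, ← hcore]
  intro z
  simpa using key z⁻¹

end BN2

open BN2

/-- reduction of the uniqueness of splittings to rank two -/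
theorem reduce
    (H : ∀ (Γ : Type u) [Group Γ] [Finite Γ] (Q : BNPair Γ), Q.rank = 2 → Q.Irreducible →
      ∀ F : Subgroup Γ, F ≤ Q.B → Q.B ≤ normalizer (F : Set Γ) → Group.IsNilpotent F →
        F ⊔ (Q.B ⊓ Q.N) = Q.B → ∀ d ∈ F, d ∈ Q.N → ∀ g : Γ, g⁻¹ * d * g ∈ Q.B)
    {G : Type u} [Group G] [Finite G]
    (P : BNPair G) (h2 : 2 ≤ P.rank) (hirr : P.Irreducible) (hcore : P.B.normalCore = ⊥)
    (U U' : Subgroup G) (hU : U ≤ P.B) (hU' : U' ≤ P.B)
    (hUn : ∀ b ∈ P.B, ∀ u ∈ U, b * u * b⁻¹ ∈ U) (hU'n : ∀ b ∈ P.B, ∀ u ∈ U', b * u * b⁻¹ ∈ U')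
    (hUnil : Group.IsNilpotent U) (hU'nil : Group.IsNilpotent U')
    (hUH : U ⊔ (P.B ⊓ P.N) = P.B) (hU'H : U' ⊔ (P.B ⊓ P.N) = P.B) : U = U' := by
  have n1 := norm_of hUn
  have n2 := norm_of hU'n
  have hF : U ⊔ U' ≤ P.B := sup_le hU hU'
  have key : ∀ d ∈ U ⊔ U', d ∈ P.N → d = 1 := fun d hd hdN =>
    inf_eq P H h2 hirr hcore hF
      ((le_inf n1 n2).trans (normalizer_inf_normalizer_le_normalizer_sup _ _))
      (H1.isNilpotent_sup_of_le_normalizer (hU.trans n2) (hU'.trans n1) hUnil hU'nil)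
      (le_antisymm (sup_le hF inf_le_left) (hUH.ge.trans (sup_le_sup_right le_sup_left _))) hd hdN
  have fin : ∀ V ≤ U ⊔ U', P.B ≤ normalizer (V : Set G) → V ⊔ (P.B ⊓ P.N) = P.B → U ⊔ U' ≤ V := by
    intro V hV hn hH f hf
    have h1 : f ∈ ((V ⊔ (P.B ⊓ P.N) : Subgroup G) : Set G) := by rw [hH]; exact hF hf
    rw [coe_mul_of_right_le_normalizer_left _ _ (inf_le_left.trans hn)] at h1
    obtain ⟨x, hx, y, hy, rfl⟩ := h1
    have : y = 1 := key y (by simpa using mul_mem (inv_mem (hV hx)) hf) hy.2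
    simpa [this] using hx
  exact le_antisymm (le_sup_left.trans (fin U' le_sup_right n2 hU'H))
    (le_sup_right.trans (fin U le_sup_left n1 hUH))

end H11.SPL
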