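import Cfsg.Agent.Lib.SPL.Defs

/-! Generalized polygons: lines, apartments, rigidity. -/

set_option autoImplicit false

namespace H11.SPL

open MulAction Subgroup Cfsg

variable {G V : Type*} [Group G] [MulAction G V] {adj : V → V → Prop} {n : ℕ}

theorem Line.shift {x : ℤ → V} (hx : Line adj x) (k : ℤ) : Line adj fun i => x (i + k) :=
  ⟨fun i => by simpa [add_right_comm i 1 k] using hx.adj (i + k),
    fun i => by simpa [add_right_comm i 2 k] using hx.ne (i + k)⟩

theorem Line.adj' {x : ℤ → V} (hx : Line adj x) {i j : ℤ} (h : j = i + 1) : adj (x i) (x j) :=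
  h ▸ hx.adj i

theorem Line.ne' {x : ℤ → V} (hx : Line adj x) {i j : ℤ} (h : j = i + 2) : x i ≠ x j :=
  h ▸ hx.ne i

theorem Apt.line {x : ℤ → V} (hx : Apt adj n x) : Line adj x := hx.toLine

theorem Apt.per' {x : ℤ → V} (hx : Apt adj n x) {i j : ℤ} (h : j = i + 2 * n) : x j = x i :=
  h ▸ hx.per i

theorem Apt.shift {x : ℤ → V} (hx : Apt adj n x) (k : ℤ) : Apt adj n fun i => x (i + k) :=
  ⟨hx.line.shift k, fun i => hx.per' (by ring)⟩

theorem Apt.per_mul {x : ℤ → V} (hx : Apt adj n x) (i k : ℤ) : x (i + k * (2 * n)) = x i := by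
  induction k using Int.induction_on with
  | zero => simp
  | succ k ih => rw [← ih]; exact hx.per' (by ring)
  | pred k ih => rw [← ih]; exact (hx.per' (by ring)).symm

namespace Geo

variable (h : Geo adj n)
include h

theorem rev {x : ℤ → V} (hx : Line adj x) (k : ℤ) : Line adj fun i => x (k - i) :=
  ⟨fun i => h.symm _ _ (hx.adj' (by ring)), fun i => (hx.ne' (by ring)).symm⟩

theorem rev_apt {x : ℤ → V} (hx : Apt adj n x) (k : ℤ) : Apt adj n fun i => x (k - i) :=
  ⟨h.rev hx.line k, fun i => (hx.per' (by ring)).symm⟩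

theorem adj_pred {x : ℤ → V} (hx : Line adj x) {i j : ℤ} (e : i = j + 1) : adj (x i) (x j) :=
  h.symm _ _ (hx.adj' e)

omit h in
theorem glue {x y : ℤ → V} (hx : Line adj x) (hy : Line adj y) (k : ℤ) (e : x k = y k)
    (hne : x (k - 1) ≠ y (k + 1)) : Line adj fun i => if i ≤ k then x i else y i := by
  refine ⟨fun i => ?_, fun i => ?_⟩
  · by_cases h1 : i + 1 ≤ k
    · simp only [if_pos h1, if_pos (show i ≤ k by omega)]; exact hx.adj i
    · by_cases h2 : i ≤ k
      · obtain rfl : i = k := by omega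
        simp only [if_neg h1, if_pos h2, e]; exact hy.adj i
      · simp only [if_neg h1, if_neg h2]; exact hy.adj i
  · by_cases h1 : i + 2 ≤ k
    · simp only [if_pos h1, if_pos (show i ≤ k by omega)]; exact hx.ne i
    · by_cases h2 : i ≤ k
      · simp only [if_neg h1, if_pos h2]
        rcases (show i = k ∨ i = k - 1 by omega) with rfl | rfl
        · rw [e]; exact hy.ne i
        · rwa [show k - 1 + 2 = k + 1 by ring]
      · simp only [if_neg h1, if_neg h2]; exact hy.ne i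

theorem girth' {x : ℤ → V} (hx : Line adj x) {i j : ℤ} (h1 : i < j) (h2 : j < i + 2 * n) :
    x i ≠ x j := by
  have := h.girth _ (hx.shift i) (j - i).toNat (by omega) (by omega)
  simpa [Int.toNat_of_nonneg (show 0 ≤ j - i by omega)] using this

/-- two short paths with the same end points coincide -/
theorem uniq {x y : ℤ → V} (hx : Line adj x) (hy : Line adj y) {i j : ℤ} (hi : x i = y i)
    (hj : x j = y j) (hl : j < i + n) {m : ℤ} (h1 : i ≤ m) (h2 : m ≤ j) : x m = y m := by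
  have key : ∀ k : ℕ, ∀ i : ℤ, j = i + k → x i = y i → j < i + n → ∀ m, i ≤ m → m ≤ j →
      x m = y m := by
    intro k
    induction k with
    | zero => intro i e hi _ m h1 h2; rwa [show m = i by omega]
    | succ k ih =>
      intro i e hi hl m h1 h2
      rcases eq_or_lt_of_le h1 with rfl | h1
      · exact hi
      refine ih (i + 1) (by omega) ?_ (by omega) m h1 h2
      by_contra hne
      have hz := glue (h.rev hy (2 * i)) hx i (by simp only [show 2 * i - i = i by ring, hi])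
        (by simp only [show 2 * i - (i - 1) = i + 1 by ring]; exact Ne.symm hne)
      refine h.girth' hz (i := 2 * i - j) (j := j) (by omega) (by omega) ?_
      simp only [if_pos (show 2 * i - j ≤ i by omega), if_neg (show ¬ j ≤ i by omega),
        show 2 * i - (2 * i - j) = j by ring, hj]
  exact key (j - i).toNat i (by omega) hi hl m h1 h2

theorem ext {x : ℤ → V} (hx : Line adj x) (k : ℤ) {b : V} (hb : adj (x k) b) (hne : b ≠ x (k - 1)) :
    ∃ y, Line adj y ∧ (∀ i ≤ k, y i = x i) ∧ y (k + 1) = b := by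
  obtain ⟨z, hz, z0, z1⟩ := h.apt _ _ hb
  refine ⟨_, glue hx (hz.line.shift (-k)) k (by simp [z0]) (by simpa [z1] using hne.symm),
    fun i hi => if_pos hi, by simp [z1]⟩

/-- apartments that share a path of length `n + 1` coincide -/
theorem apt_ext {x y : ℤ → V} (hx : Apt adj n x) (hy : Apt adj n y) (k : ℤ)
    (e : ∀ i, k ≤ i → i ≤ k + n + 1 → x i = y i) (i : ℤ) : x i = y i := by
  have h3 := h.three
  have key : ∀ i, k ≤ i → i ≤ k + 2 * n → x i = y i := fun i h1 h2 => by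
    by_cases h4 : i ≤ k + n + 1
    · exact e i h1 h4
    · refine h.uniq hx.line hy.line (i := k + n + 1) (j := k + 2 * n) (e _ (by omega) le_rfl) ?_
        (by omega) (by omega) h2
      rw [hx.per, hy.per]; exact e k le_rfl (by omega)
  have p : (0 : ℤ) < 2 * n := by omega
  have e1 : i = k + (i - k) % (2 * n) + (i - k) / (2 * n) * (2 * n) := by
    have := Int.emod_add_ediv_mul (i - k) (2 * n); omega
  rw [e1, hx.per_mul, hy.per_mul]
  have := Int.emod_nonneg (i - k) p.ne'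
  have := Int.emod_lt_of_pos (i - k) p
  exact key _ (by omega) (by omega)

end Geo

theorem Pol0.line_smul (h : Pol0 G adj n) {x : ℤ → V} (hx : Line adj x) (g : G) :
    Line adj fun i => g • x i :=
  ⟨fun i => h.smul g _ _ (hx.adj i), fun i e => hx.ne i (smul_left_cancel g e)⟩

theorem Pol0.apt_smul (h : Pol0 G adj n) {x : ℤ → V} (hx : Apt adj n x) (g : G) :
    Apt adj n fun i => g • x i :=
  ⟨h.line_smul hx.line g, fun i => by rw [hx.per]⟩

variable (adj n) in
/-- `F` is transitive on the apartments through the flag `a, b` -/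
def Spl (F : Subgroup G) (a b : V) : Prop := ∀ x y, Apt adj n x → Apt adj n y → x 0 = a → x 1 = b →
  y 0 = a → y 1 = b → ∃ u ∈ F, ∀ i, u • x i = y i

variable (G) in
/-- the Fitting subgroup of the flag stabiliser -/
def Ft (a b : V) : Subgroup G := fittingOf (St G a b)

theorem St_comm (a b : V) : St G a b = St G b a := inf_comm _ _

theorem Tr.mul {Δ : Set V} {g g' : G} (h : Tr Δ g) (h' : Tr Δ g') : Tr Δ (g * g') :=
  fun x hx => by rw [mul_smul, h' x hx, h x hx]

theorem Tr.inv {Δ : Set V} {g : G} (h : Tr Δ g) : Tr Δ g⁻¹ :=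
  fun x hx => by rw [inv_smul_eq_iff, h x hx]

theorem Tr.pow {Δ : Set V} {g : G} (h : Tr Δ g) (k : ℕ) : Tr Δ (g ^ k) := by
  induction k with
  | zero => intro x _; simp
  | succ k ih => rw [pow_succ]; exact ih.mul h

namespace Pol0

variable (h : Pol0 G adj n)
include h

theorem geo : Geo adj n := h.toGeo

theorem nb_smul (g : G) {a b : V} : adj (g • a) (g • b) ↔ adj a b :=
  ⟨fun e => by simpa using h.smul g⁻¹ _ _ e, h.smul g a b⟩

theorem tr_conj {a : V} {d : G} (hd : Tr (Nb adj a) d) (g : G) :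
    Tr (Nb adj (g • a)) (g * d * g⁻¹) := fun y hy => by
  have : adj a (g⁻¹ • y) := by simpa using h.smul g⁻¹ _ _ hy
  rw [mul_smul, mul_smul, hd _ this, smul_inv_smul]

/-- an element fixing the ends of a short path fixes the path -/
theorem fix_seg {x : ℤ → V} (hx : Line adj x) {g : G} {i j : ℤ} (hi : g • x i = x i)
    (hj : g • x j = x j) (hl : j < i + n) {m : ℤ} (h1 : i ≤ m) (h2 : m ≤ j) : g • x m = x m :=
  h.geo.uniq (h.line_smul hx g) hx hi hj hl h1 h2

theorem fix_apt {x : ℤ → V} (hx : Apt adj n x) {g : G} (k : ℤ)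
    (e : ∀ i, k ≤ i → i ≤ k + n + 1 → g • x i = x i) (i : ℤ) : g • x i = x i :=
  h.geo.apt_ext (h.apt_smul hx g) hx k e i

theorem tr_line {x y : ℤ → V} (hx : Line adj x) (hy : Line adj y) (e0 : x 0 = y 0)
    (e1 : x 1 = y 1) : ∃ u ∈ Ft G (x 0) (x 1), ∀ i : ℤ, 0 ≤ i → i ≤ n + 1 → u • x i = y i := by
  obtain ⟨F, f1, f2, f3, f4⟩ := h.split _ _ (hx.adj' (i := 0) (j := 1) rfl)
  obtain ⟨u, hu, u1, u2⟩ := f4 x y hx hy rfl rfl e0.symm e1.symm
  refine ⟨u, H1.le_fittingOf f1 f2 f3 hu, fun i h1 h2 => ?_⟩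
  rcases (show i = 0 ∨ i = n + 1 ∨ (1 ≤ i ∧ i ≤ n) by omega) with rfl | rfl | ⟨h3, h4⟩
  · rw [← e0]; exact (f1 hu).1
  · exact u2
  · exact h.geo.uniq (h.line_smul hx u) hy (i := 1) (j := n) (e1 ▸ (f1 hu).2) u1 (by omega) h3 h4

/-- a path of length `n + 1` lies in an apartment -/
theorem close {x : ℤ → V} (hx : Line adj x) (k : ℤ) :
    ∃ y, Apt adj n y ∧ ∀ i, k ≤ i → i ≤ k + n + 1 → y i = x i := by
  have hs := hx.shift k
  obtain ⟨z, hz, z0, z1⟩ := h.apt _ _ (hs.adj' (i := 0) (j := 1) rfl)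
  obtain ⟨u, -, hu⟩ := h.tr_line hz.line hs z0 z1
  refine ⟨_, (h.apt_smul hz u).shift (-k), fun i h1 h2 => ?_⟩
  simpa using hu (i + -k) (by omega) (by omega)

theorem spl (a b : V) : Spl adj n (Ft G a b) a b := by
  rintro x y hx hy rfl rfl e0 e1
  obtain ⟨u, hu, e⟩ := h.tr_line hx.line hy.line e0.symm e1.symm
  exact ⟨u, hu, h.geo.apt_ext (h.apt_smul hx u) hy 0 fun i h1 h2 => e i h1 (by omega)⟩

/-- change an apartment at one end of a path of length `n` -/
theorem branch {x : ℤ → V} (hx : Line adj x) (k : ℤ) {b : V} (hb : adj (x k) b)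
    (hne : b ≠ x (k - 1)) :
    ∃ y, Apt adj n y ∧ (∀ i, k - n ≤ i → i ≤ k → y i = x i) ∧ y (k + 1) = b := by
  obtain ⟨z, hz, e1, e2⟩ := h.geo.ext hx k hb hne
  obtain ⟨y, hy, e⟩ := h.close hz (k - n)
  exact ⟨y, hy, fun i h1 h2 => (e i h1 (by omega)).trans (e1 i h2),
    (e _ (by omega) (by omega)).trans e2⟩

theorem branch' {x : ℤ → V} (hx : Line adj x) (k : ℤ) {b : V} (hb : adj (x k) b)
    (hne : b ≠ x (k + 1)) :
    ∃ y, Apt adj n y ∧ (∀ i, k ≤ i → i ≤ k + n → y i = x i) ∧ y (k - 1) = b := by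
  obtain ⟨y, hy, e1, e2⟩ := h.branch (h.geo.rev hx 0) (-k) (b := b) (by simpa using hb)
    (by simpa [show -(-k - 1) = k + 1 by ring] using hne)
  refine ⟨_, h.geo.rev_apt hy 0, fun i h1 h2 => ?_, ?_⟩
  · simpa using e1 (-i) (by omega) (by omega)
  · rw [← e2]; congr 1; ring

theorem apt3 {a b c : V} (hb : adj a b) (hc : adj a c) (hne : c ≠ b) :
    ∃ x, Apt adj n x ∧ x 0 = a ∧ x 1 = b ∧ x (-1) = c := by
  obtain ⟨z, hz, rfl, rfl⟩ := h.apt _ _ hb
  obtain ⟨y, hy, e1, e2⟩ := h.branch' hz.line 0 hc (by simpa using hne)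
  have := h.three
  exact ⟨y, hy, e1 0 le_rfl (by omega), e1 1 (by omega) (by omega), by simpa using e2⟩

/-- opposite vertices -/
theorem opp {x : ℤ → V} (hx : Line adj x) (k : ℤ) {g : G} (hk : g • x (k + n) = x (k + n))
    (ht : Tr (Nb adj (x k)) g) : Tr (Nb adj (x (k + n))) g := by
  intro b hb
  have h3 := h.three
  by_cases e : b = x (k + n - 1)
  · rw [e]
    exact h.fix_seg hx (i := k + 1) (ht _ (hx.adj k)) hk (by omega) (by omega) (by omega)
  obtain ⟨y, hy, e1, e2⟩ := h.branch hx (k + n) hb e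
  have f1 : g • y (k + 2 * n - 1) = y (k + 2 * n - 1) := by
    rw [hy.per' (i := k - 1) (by ring)]
    refine ht _ ?_
    rw [← e1 k (by omega) (by omega)]
    exact h.geo.adj_pred hy.line (by ring)
  rw [← e2]
  exact h.fix_seg hy.line (i := k + n) (by rwa [e1 _ (by omega) le_rfl]) f1 (by omega) (by omega)
    (by omega)

theorem rig_step {x : ℤ → V} (hx : Apt adj n x) {g : G} (hf : ∀ i, g • x i = x i) (k : ℤ)
    (h0 : Tr (Nb adj (x k)) g) (h1 : Tr (Nb adj (x (k + 1))) g) : Tr (Nb adj (x (k + 2))) g := by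
  have h3 := h.three
  have t1 := h.opp hx.line (k + 1) (hf _) h1
  obtain ⟨b, hb, b1, b2⟩ := h.thick (x (k + 1 + n)) (x (k + n)) (x (k + n + 2))
  have gb := t1 b hb
  -- `b` is opposite to `x k` and to `x (k + 2)`
  obtain ⟨y, hy, e1, e2⟩ := h.geo.ext (h.geo.rev hx.line (2 * k)) (k + n - 1) (b := b)
    (by rw [← hx.per' (j := k + 1 + n) (by ring)]; exact hb)
    (by rw [← hx.per' (j := k + n + 2) (by ring)]; exact b2)
  have t2 : Tr (Nb adj b) g := by
    have := h.opp hy k (g := g) (by rwa [show k + n = k + n - 1 + 1 by ring, e2])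
      (by rwa [e1 k (by omega), show 2 * k - k = k by ring])
    rwa [show k + n = k + n - 1 + 1 by ring, e2] at this
  obtain ⟨z, hz, e3, e4⟩ := h.geo.ext hx.line (k + 1 + n) hb
    (by rwa [show k + 1 + n - 1 = k + n by ring])
  have := h.opp (h.geo.rev hz (k + n + 2)) 0 (g := g)
    (by rw [show k + n + 2 - (0 + n) = k + 2 by ring, e3 _ (by omega)]; exact hf _)
    (by rwa [show k + n + 2 - 0 = k + 1 + n + 1 by ring, e4])
  rwa [show k + n + 2 - (0 + n) = k + 2 by ring, e3 _ (by omega)] at this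

theorem rig_all {x : ℤ → V} (hx : Apt adj n x) {g : G} (hf : ∀ i, g • x i = x i) (k : ℤ)
    (h0 : Tr (Nb adj (x k)) g) (h1 : Tr (Nb adj (x (k + 1))) g) (i : ℤ) : Tr (Nb adj (x i)) g := by
  have key : ∀ m : ℕ, Tr (Nb adj (x (k + m))) g ∧ Tr (Nb adj (x (k + m + 1))) g := by
    intro m
    induction m with
    | zero => simpa using ⟨h0, h1⟩
    | succ m ih =>
      have := h.rig_step hx hf _ ih.1 ih.2
      push_cast
      exact ⟨by rw [← add_assoc]; exact ih.2, by rwa [show k + (m + 1) + 1 = k + m + 2 by ring]⟩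
  have h3 := h.three
  have p : (0 : ℤ) < 2 * n := by omega
  have e1 : i = k + (i - k) % (2 * n) + (i - k) / (2 * n) * (2 * n) := by
    have := Int.emod_add_ediv_mul (i - k) (2 * n); omega
  rw [e1, hx.per_mul, ← Int.toNat_of_nonneg (Int.emod_nonneg (i - k) p.ne')]
  exact (key _).1

/-- rigidity -/
theorem rigid0 {x : ℤ → V} (hx : Apt adj n x) {g : G} (hf : ∀ i, g • x i = x i) (k : ℤ)
    (h0 : Tr (Nb adj (x k)) g) (h1 : Tr (Nb adj (x (k + 1))) g) (v : V) : g • v = v := by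
  have h3 := h.three
  have := h.conn {v | ∃ y, Apt adj n y ∧ (∀ i, g • y i = y i) ∧ (∀ i, Tr (Nb adj (y i)) g) ∧ y 0 = v}
    ?_ ⟨_, x, hx, hf, h.rig_all hx hf k h0 h1, rfl⟩
  · obtain ⟨y, -, f, -, rfl⟩ := this.symm ▸ Set.mem_univ v
    exact f 0
  rintro _ ⟨y, hy, f, t, rfl⟩ b hb
  by_cases e : b = y (0 - 1)
  · exact ⟨_, hy.shift (-1), fun i => f _, fun i => t _, by simpa using e.symm⟩
  obtain ⟨z, hz, e1, e2⟩ := h.branch hy.line 0 hb e
  have fz : ∀ i, g • z i = z i := h.fix_apt hz (0 - n) fun i h1 h2 => by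
    rcases (show i ≤ 0 ∨ i = 0 + 1 by omega) with h4 | rfl
    · rw [e1 i h1 h4]; exact f i
    · rw [e2]; exact t 0 b hb
  have := h.rig_all hz fz (-1) (by rw [e1 _ (by omega) (by omega)]; exact t _)
    (by rw [e1 _ (by omega) (by omega)]; exact t _)
  exact ⟨_, hz.shift 1, fun i => fz _, fun i => this _, e2⟩

theorem tr_nb {F : Subgroup G} {a b : V} (hF : Spl adj n F a b) (hb : adj a b) {c c' : V}
    (hc : adj a c) (hc' : adj a c') (h1 : c ≠ b) (h2 : c' ≠ b) : ∃ u ∈ F, u • c = c' := by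
  obtain ⟨x, hx, x0, x1, rfl⟩ := h.apt3 hb hc h1
  obtain ⟨y, hy, y0, y1, rfl⟩ := h.apt3 hb hc' h2
  obtain ⟨u, hu, e⟩ := hF x y hx hy x0 x1 y0 y1
  exact ⟨u, hu, e _⟩

theorem tr_st {a b c c' : V} (hb : adj a b) (hc : adj a c) (hc' : adj a c') (h1 : c ≠ b)
    (h2 : c' ≠ b) : ∃ u ∈ St G a b, u • c = c' := by
  obtain ⟨u, hu, e⟩ := h.tr_nb (h.spl a b) hb hc hc' h1 h2
  exact ⟨u, H1.fittingOf_le _ hu, e⟩

theorem tr_one {a c c' : V} (hc : adj a c) (hc' : adj a c') : ∃ u : G, u • a = a ∧ u • c = c' := by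
  obtain ⟨b, hb, h1, h2⟩ := h.thick a c c'
  obtain ⟨u, hu, e⟩ := h.tr_st hb hc hc' h1.symm h2.symm
  exact ⟨u, hu.1, e⟩

theorem two [Finite V] (a : V) : Two (stabilizer G a) (Nb adj a) := by
  refine ⟨fun g hg x hx => ?_, ?_, fun b hb c hc b' hb' c' hc' h1 h2 => ?_⟩
  · have := h.smul g _ _ hx
    rwa [mem_stabilizer_iff.1 hg] at this
  · obtain ⟨b, hb, -, -⟩ := h.thick a a a
    obtain ⟨c, hc, h1, -⟩ := h.thick a b b
    obtain ⟨d, hd, h2, h3⟩ := h.thick a b c
    rw [← (Set.ncard_eq_three.2 ⟨b, c, d, h1.symm, h2.symm, h3.symm, rfl⟩)]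
    refine Set.ncard_le_ncard ?_
    rintro _ (rfl | rfl | rfl) <;> assumption
  · obtain ⟨u, u1, u2⟩ := h.tr_one hb hb'
    have hc2 : adj a (u • c) := by simpa [u1] using h.smul u _ _ hc
    obtain ⟨v, hv, e⟩ := h.tr_st hb' hc2 hc' (fun e => h1 (smul_left_cancel u (u2.trans e.symm)))
      h2.symm
    exact ⟨v * u, by rw [mem_stabilizer_iff, mul_smul, u1]; exact hv.1,
      by rw [mul_smul, u2]; exact hv.2, by rw [mul_smul, e]⟩

theorem pan [Finite G] [Finite V] {a b : V} (hb : adj a b) :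
    Pan (stabilizer G a) (Ft G a b) (Nb adj a) b :=
  { h.two a with
    ha := hb
    le := H1.fittingOf_le _
    nrm := H1.le_normalizer_fittingOf _
    nil := H1.isNilpotent_fittingOf _
    tr := fun _ hx _ hy h1 h2 => h.tr_nb (h.spl a b) hb hx hy h1 h2 }

/-- transitivity on the apartments with a given origin -/
theorem tr0 {x y : ℤ → V} (hx : Apt adj n x) (hy : Apt adj n y) (e : x 0 = y 0) :
    ∃ g : G, ∀ i, g • x i = y i := by
  obtain ⟨u, u0, u1⟩ := h.tr_one (hx.line.adj' (i := 0) (j := 1) rfl)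
    (e ▸ hy.line.adj' (i := 0) (j := 1) rfl)
  obtain ⟨v, -, hv⟩ := h.spl (x 0) (y 1) _ y (h.apt_smul hx u) hy u0 u1 e.symm rfl
  exact ⟨v * u, fun i => by rw [mul_smul, hv]⟩

/-- the reflection in a vertex of an apartment -/
theorem refl {x : ℤ → V} (hx : Apt adj n x) (k : ℤ) : ∃ w : G, ∀ i, w • x i = x (2 * k - i) := by
  obtain ⟨w, hw⟩ := h.tr0 (hx.shift k) (h.geo.rev_apt hx k) (by simp)
  refine ⟨w, fun i => ?_⟩
  have := hw (i - k)
  simp only [sub_add_cancel] at this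
  rw [this]; congr 1; ring

/-- the translation by an even number -/
theorem transl {x : ℤ → V} (hx : Apt adj n x) (k : ℤ) : ∃ w : G, ∀ i, w • x i = x (i + 2 * k) := by
  obtain ⟨w, hw⟩ := h.refl hx 0
  obtain ⟨w', hw'⟩ := h.refl hx k
  exact ⟨w' * w, fun i => by rw [mul_smul, hw, hw']; congr 1; ring⟩

theorem ncard_smul (g : G) (a : V) : (Nb adj (g • a)).ncard = (Nb adj a).ncard := by
  refine (Set.ncard_congr (fun b _ => g • b) (fun b hb => h.smul g _ _ hb)
    (fun _ _ _ _ e => smul_left_cancel g e) (fun b hb => ⟨g⁻¹ • b, ?_, smul_inv_smul g b⟩)).symm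
  have := h.smul g⁻¹ _ _ hb
  rwa [inv_smul_smul] at this

theorem val_eq {a b c : V} (hb : adj a b) (hc : adj a c) : (Nb adj c).ncard = (Nb adj b).ncard := by
  obtain ⟨u, -, rfl⟩ := h.tr_one hb hc
  exact h.ncard_smul u b

theorem val_line {x : ℤ → V} (hx : Line adj x) (i : ℤ) :
    (Nb adj (x (i + 2))).ncard = (Nb adj (x i)).ncard :=
  h.val_eq (h.geo.adj_pred hx (i := i + 1) rfl) (hx.adj' (by ring))

end Pol0

theorem Pol.rigid (h : Pol G adj n) {x : ℤ → V} (hx : Apt adj n x) {g : G}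
    (hf : ∀ i, g • x i = x i) (k : ℤ) (h0 : Tr (Nb adj (x k)) g)
    (h1 : Tr (Nb adj (x (k + 1))) g) : g = 1 :=
  h.faith g (h.rigid0 hx hf k h0 h1)

end H11.SPL
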