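import Cfsg.Agent.Lib.SPL.Bas

/-! Generalized polygons: counting paths. -/

set_option autoImplicit false

namespace H11.SPL

open MulAction Subgroup Cfsg

variable {G V : Type*} [Group G] [MulAction G V] {adj : V → V → Prop} {n : ℕ}

/-- the `k`-th vertices of a family of lines -/
def End (P : Set (ℤ → V)) (k : ℤ) : Set V := (fun y => y k) '' P

/-- the vertices that follow `v` -/
def Ext (P : Set (ℤ → V)) (k : ℤ) (v : V) : Set V := {z | ∃ y ∈ P, y k = v ∧ y (k + 1) = z}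

variable [Finite V] {P : Set (ℤ → V)}

theorem End_eq (k : ℤ) [DecidableEq V] : (End P (k + 1)).ncard =
    ((End P k).toFinite.toFinset.biUnion fun v => (Ext P k v).toFinite.toFinset).card := by
  rw [← Set.ncard_coe_finset]
  congr 1
  ext z
  simp only [Finset.coe_biUnion, Set.Finite.coe_toFinset, Set.mem_iUnion]
  constructor
  · rintro ⟨y, hy, rfl⟩
    exact ⟨_, ⟨y, hy, rfl⟩, y, hy, rfl, rfl⟩
  · rintro ⟨v, -, y, hy, -, rfl⟩
    exact ⟨y, hy, rfl⟩

theorem End_le {k : ℤ} {c : ℕ} (hc : ∀ y ∈ P, (Ext P k (y k)).ncard ≤ c) :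
    (End P (k + 1)).ncard ≤ (End P k).ncard * c := by
  classical
  rw [End_eq, Set.ncard_eq_toFinset_card _ (End P k).toFinite]
  refine Finset.card_biUnion_le_card_mul _ _ _ fun v hv => ?_
  obtain ⟨y, hy, rfl⟩ := (Set.Finite.mem_toFinset _).1 hv
  rw [← Set.ncard_eq_toFinset_card]
  exact hc y hy

theorem End_ge (h : Geo adj n) {b : V} (hP : ∀ y ∈ P, Line adj y ∧ y 1 = b) {k : ℤ} (h1 : 1 ≤ k)
    (h2 : k < n) {c : ℕ} (hc : ∀ y ∈ P, c ≤ (Ext P k (y k)).ncard) :
    (End P k).ncard * c ≤ (End P (k + 1)).ncard := by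
  classical
  rw [End_eq, Set.ncard_eq_toFinset_card _ (End P k).toFinite, Finset.card_biUnion]
  · refine Finset.card_nsmul_le_sum _ _ _ fun v hv => ?_
    obtain ⟨y, hy, rfl⟩ := (Set.Finite.mem_toFinset _).1 hv
    rw [← Set.ncard_eq_toFinset_card]
    exact hc y hy
  · intro v _ v' _ hne
    refine Finset.disjoint_left.2 fun z hz hz' => hne ?_
    obtain ⟨y, hy, rfl, rfl⟩ := (Set.Finite.mem_toFinset _).1 hz
    obtain ⟨y', hy', rfl, e⟩ := (Set.Finite.mem_toFinset _).1 hz'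
    exact h.uniq (hP y hy).1 (hP y' hy').1 ((hP y hy).2.trans (hP y' hy').2.symm) e.symm
      (by omega) h1 (by omega)

theorem End_le_prod {b : V} (hP : ∀ y ∈ P, y 1 = b) (c : ℕ → ℕ) (k : ℕ)
    (hc : ∀ j : ℕ, 1 ≤ j → j ≤ k → ∀ y ∈ P, (Ext P j (y j)).ncard ≤ c j) :
    (End P (k + 1)).ncard ≤ ∏ j ∈ Finset.Icc 1 k, c j := by
  induction k with
  | zero =>
    simp only [Nat.cast_zero, zero_add, zero_lt_one, Finset.Icc_eq_empty_of_lt, Finset.prod_empty]
    rw [← Set.ncard_singleton b]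
    refine Set.ncard_le_ncard ?_
    rintro _ ⟨y, hy, rfl⟩
    exact hP y hy
  | succ k ih =>
    rw [Finset.prod_Icc_succ_top (by omega)]
    exact (End_le (hc (k + 1) (by omega) le_rfl)).trans
      (Nat.mul_le_mul_right _ (ih fun j h1 h2 => hc j h1 (by omega)))

theorem End_ge_prod (h : Geo adj n) {b : V} (hP : ∀ y ∈ P, Line adj y ∧ y 1 = b) (hne : P.Nonempty)
    (c : ℕ → ℕ) (k : ℕ) (hk : k < n)
    (hc : ∀ j : ℕ, 1 ≤ j → j ≤ k → ∀ y ∈ P, c j ≤ (Ext P j (y j)).ncard) :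
    ∏ j ∈ Finset.Icc 1 k, c j ≤ (End P (k + 1)).ncard := by
  induction k with
  | zero =>
    simp only [Nat.cast_zero, zero_add, zero_lt_one, Finset.Icc_eq_empty_of_lt, Finset.prod_empty]
    exact (Set.ncard_pos (Set.toFinite _)).2 (hne.image _)
  | succ k ih =>
    rw [Finset.prod_Icc_succ_top (by omega)]
    exact (Nat.mul_le_mul_right _ (ih (by omega) fun j h1 h2 => hc j h1 (by omega))).trans
      (End_ge h hP (k := (k + 1 : ℕ)) (by omega) (by omega) (hc (k + 1) (by omega) le_rfl))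

omit [Finite V] in
theorem Ext_sub (h : Geo adj n) {a : V} (hP : ∀ y ∈ P, Line adj y ∧ y 0 = a) {k : ℤ} (h1 : 1 ≤ k)
    (h2 : k < n) {y : ℤ → V} (hy : y ∈ P) : Ext P k (y k) ⊆ Nb adj (y k) \ {y (k - 1)} := by
  rintro _ ⟨z, hz, e, rfl⟩
  refine ⟨e ▸ (hP z hz).1.adj k, ?_⟩
  rw [Set.mem_singleton_iff, ← h.uniq (hP z hz).1 (hP y hy).1 ((hP z hz).2.trans (hP y hy).2.symm) e
    (by omega) (m := k - 1) (by omega) (by omega)]
  exact ((hP z hz).1.ne' (by ring)).symm

omit [Finite V] in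
theorem Pol0.val_par (h : Pol0 G adj n) {x : ℤ → V} (hx : Line adj x) (j : ℕ) :
    (Nb adj (x j)).ncard = if Even j then (Nb adj (x 0)).ncard else (Nb adj (x 1)).ncard := by
  induction j using Nat.twoStepInduction with
  | zero => simp
  | one => simp
  | more j ih _ =>
    have := h.val_line hx j
    push_cast
    rw [this, ih]
    simp [Nat.even_add]

/-- the number of paths that start with a given flag -/
theorem Pol0.End_le_val (h : Pol0 G adj n) {a b : V} (hP : ∀ y ∈ P, Line adj y ∧ y 0 = a ∧ y 1 = b)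
    (k : ℕ) (hk : k < n) : (End P (k + 1)).ncard ≤
      ∏ j ∈ Finset.Icc 1 k, if Even j then (Nb adj a).ncard - 1 else (Nb adj b).ncard - 1 := by
  refine End_le_prod (fun y hy => (hP y hy).2.2) _ k fun j h1 h2 y hy => ?_
  refine (Set.ncard_le_ncard (Ext_sub h.geo (fun y hy => ⟨(hP y hy).1, (hP y hy).2.1⟩) (by omega)
    (by omega) hy)).trans ?_
  rw [Set.ncard_sdiff_singleton_of_mem (s := Nb adj (y j))
      (h.geo.adj_pred (hP y hy).1 (i := j) (j := j - 1) (by ring)),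
    h.val_par (hP y hy).1, (hP y hy).2.1, (hP y hy).2.2]
  split_ifs <;> rfl

omit [Finite V] in
theorem Pol0.other (h : Pol0 G adj n) {y : ℤ → V} (hy : Line adj y) {p : V} (hp : adj (y 0) p) :
    ∃ z, Line adj z ∧ z 0 = y 0 ∧ z 1 = p ∧ z n = y n := by
  by_cases e : p = y (0 + 1)
  · exact ⟨y, hy, rfl, e.symm, rfl⟩
  obtain ⟨w, hw, e1, e2⟩ := h.branch' hy 0 hp e
  refine ⟨_, h.geo.rev hw.line 0, e1 0 le_rfl (by omega), e2, ?_⟩
  rw [← e1 n (by omega) (by omega)]
  exact (hw.per' (by ring)).symm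

/-- fixed vertices opposite to a fixed vertex that has a non-fixed neighbour -/
theorem Pol0.cl (h : Pol0 G adj n) {m : ℕ} (hm : n = 2 * m) {g : G} {a p : V} (hp : adj a p)
    (ga : g • a = a) (gp : g • p ≠ p) (hP : ∀ y ∈ P, Line adj y ∧ y 0 = a ∧ g • y n = y n) :
    (End P n).ncard ≤ (End {y | Line adj y ∧ y 0 = a ∧ y 1 = p} (m + 1)).ncard := by
  have h3 := h.three
  have ex : ∀ v ∈ End P n, ∃ z, Line adj z ∧ z 0 = a ∧ z 1 = p ∧ z n = v ∧ g • v = v := by
    rintro _ ⟨y, hy, rfl⟩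
    obtain ⟨h1, rfl, h2⟩ := hP y hy
    obtain ⟨z, z1, z2, z3, z4⟩ := h.other h1 hp
    exact ⟨z, z1, z2, z3, z4, h2⟩
  choose! z hz using ex
  refine Set.ncard_le_ncard_of_injOn (fun v => z v (m + 1))
    (fun v hv => ⟨z v, ⟨(hz v hv).1, (hz v hv).2.1, (hz v hv).2.2.1⟩, rfl⟩) fun v hv v' hv' e => ?_
  obtain ⟨l, z0, z1, zn, gv⟩ := hz v hv
  obtain ⟨l', -, -, zn', gv'⟩ := hz v' hv'
  by_contra hne
  have key : ∀ k : ℕ, ∀ i : ℤ, i = n - k → m + 1 ≤ i → z v i = z v' i →
      g • z v (n - 1) = z v (n - 1) := by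
    intro k
    induction k with
    | zero =>
      intro i e1 _ e2
      rw [show i = n by omega, zn, zn'] at e2
      exact absurd e2 hne
    | succ k ih =>
      intro i e1 e2 e3
      by_cases e4 : z v (i + 1) = z v' (i + 1)
      · exact ih (i + 1) (by omega) (by omega) e4
      have hw := Geo.glue (h.geo.rev l (2 * i)) l' i (by simp only [show 2 * i - i = i by ring, e3])
        (by simpa only [show 2 * i - (i - 1) = i + 1 by ring] using e4)
      have := h.fix_seg hw (g := g) (i := 2 * i - n) (j := n) (m := 2 * i - n + 1)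
        (by simp only [if_pos (show 2 * i - n ≤ i by omega), show 2 * i - (2 * i - n) = n by ring,
          zn, gv])
        (by simp only [if_neg (show ¬ (n : ℤ) ≤ i by omega), zn', gv']) (by omega) (by omega)
        (by omega)
      simpa only [if_pos (show 2 * i - n + 1 ≤ i by omega),
        show 2 * i - (2 * i - n + 1) = n - 1 by ring] using this
  have := key (n - (m + 1)) (m + 1) (by omega) le_rfl e
  exact gp (z1 ▸ h.fix_seg l (i := 0) (z0 ▸ ga) this (by omega) (by omega) (by omega))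

end H11.SPL
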