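import Mathlib
import Cfsg.Agent.Lib.Core.Fitting

/-! Generalized polygons with a split strongly transitive group: definitions (blueprint/SPL). -/

set_option autoImplicit false

namespace H11.SPL

open MulAction Subgroup

variable {G V : Type*} [Group G] [MulAction G V]

/-- `g` acts trivially on `Δ` -/
def Tr (Δ : Set V) (g : G) : Prop := ∀ x ∈ Δ, g • x = x

/-- the neighbours of `a` -/
def Nb (adj : V → V → Prop) (a : V) : Set V := {b | adj a b}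

/-- two point stabiliser -/
def St (G : Type*) [Group G] [MulAction G V] (a b : V) : Subgroup G :=
  stabilizer G a ⊓ stabilizer G b

/-- the kernel of `M` on `Δ` -/
def Kr (M : Subgroup G) (Δ : Set V) : Subgroup G := M ⊓ fixingSubgroup G Δ

/-- a walk without backtracking, infinite in both directions -/
structure Line (adj : V → V → Prop) (x : ℤ → V) : Prop where
  adj : ∀ i, adj (x i) (x (i + 1))
  ne : ∀ i, x i ≠ x (i + 2)

/-- an apartment -/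
structure Apt (adj : V → V → Prop) (n : ℕ) (x : ℤ → V) : Prop extends Line adj x where
  per : ∀ i, x (i + 2 * n) = x i

/-- a thick generalized `n`-gon -/
structure Geo (adj : V → V → Prop) (n : ℕ) : Prop where
  symm : ∀ a b, adj a b → adj b a
  three : 3 ≤ n
  thick : ∀ a b c, ∃ d, adj a d ∧ d ≠ b ∧ d ≠ c
  girth : ∀ x, Line adj x → ∀ k : ℕ, 0 < k → k < 2 * n → x 0 ≠ x k
  apt : ∀ a b, adj a b → ∃ x, Apt adj n x ∧ x 0 = a ∧ x 1 = b
  conn : ∀ S : Set V, (∀ a ∈ S, ∀ b, adj a b → b ∈ S) → S.Nonempty → S = Set.univ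

/-- a group acting on it, every flag stabiliser has a nilpotent normal subgroup that is transitive on
the opposite flags -/
structure Pol0 (G : Type*) [Group G] [MulAction G V] (adj : V → V → Prop) (n : ℕ) : Prop
    extends Geo adj n where
  smul : ∀ (g : G) a b, adj a b → adj (g • a) (g • b)
  split : ∀ a b, adj a b → ∃ F : Subgroup G, F ≤ St G a b ∧ St G a b ≤ normalizer (F : Set G) ∧
    Group.IsNilpotent F ∧ ∀ x y, Line adj x → Line adj y → x 0 = a → x 1 = b → y 0 = a → y 1 = b →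
      ∃ u ∈ F, u • x n = y n ∧ u • x (n + 1) = y (n + 1)

/-- the faithful case -/
structure Pol (G : Type*) [Group G] [MulAction G V] (adj : V → V → Prop) (n : ℕ) : Prop
    extends Pol0 G adj n where
  faith : ∀ g : G, (∀ v : V, g • v = v) → g = 1

/-- `M` is doubly transitive on `Δ` -/
structure Two (M : Subgroup G) (Δ : Set V) : Prop where
  inv : ∀ g ∈ M, ∀ x ∈ Δ, g • x ∈ Δ
  three : 3 ≤ Δ.ncard
  two : ∀ b ∈ Δ, ∀ c ∈ Δ, ∀ b' ∈ Δ, ∀ c' ∈ Δ, b ≠ c → b' ≠ c' → ∃ g ∈ M, g • b = b' ∧ g • c = c'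

/-- a panel: `A` is a nilpotent normal subgroup of `M_a` that is transitive on `Δ - a` -/
structure Pan (M A : Subgroup G) (Δ : Set V) (a : V) : Prop extends Two M Δ where
  ha : a ∈ Δ
  le : A ≤ M ⊓ stabilizer G a
  nrm : M ⊓ stabilizer G a ≤ normalizer (A : Set G)
  nil : Group.IsNilpotent A
  tr : ∀ x ∈ Δ, ∀ y ∈ Δ, x ≠ a → y ≠ a → ∃ u ∈ A, u • x = y

/-- `M` acts on `Δ` as `3² : SD₁₆` on nine points -/
structure Bad (M : Subgroup G) (Δ : Set V) : Prop extends Two M Δ where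
  card : Δ.ncard = 9
  odd : ∀ a ∈ Δ, ∀ g ∈ M, g • a = a → Odd (orderOf g) → Tr Δ g
  st2 : ∀ a ∈ Δ, ∀ b ∈ Δ, a ≠ b → ∀ g ∈ M, ∀ g' ∈ M, g • a = a → g • b = b → g' • a = a →
    g' • b = b → ¬ Tr Δ g → ¬ Tr Δ g' → ∀ x ∈ Δ, g • x = g' • x
  neg : ∀ a ∈ Δ, ∀ v ∈ M, ∀ v' ∈ M, v • a = a → v' • a = a → Tr Δ (v * v) → Tr Δ (v' * v') →
    (∀ b ∈ Δ, b ≠ a → v • b ≠ b) → (∀ b ∈ Δ, b ≠ a → v' • b ≠ b) → ∀ x ∈ Δ, v • x = v' • x
  reg : ∃ Y : Subgroup G, Y ≤ M ∧ M ≤ normalizer (Y : Set G) ∧ Kr M Δ ≤ Y ∧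
    (∀ a ∈ Δ, ∀ b ∈ Δ, ∃ y ∈ Y, y • a = b) ∧ (∀ y ∈ Y, ∀ a ∈ Δ, y • a = a → Tr Δ y) ∧
    ∀ y ∈ Y, Tr Δ (y ^ 3)

theorem mem_St {a b : V} {g : G} : g ∈ St G a b ↔ g • a = a ∧ g • b = b := Iff.rfl

theorem mem_Kr {M : Subgroup G} {Δ : Set V} {g : G} : g ∈ Kr M Δ ↔ g ∈ M ∧ Tr Δ g := by
  simp only [Kr, mem_inf, mem_fixingSubgroup_iff, Tr]

end H11.SPL
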