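import Cfsg.Agent.Lib.SPL.Defs
import Cfsg.Agent.Lib.Wielandt.FixPoint
import Cfsg.Agent.Lib.Core.Coprime
import Cfsg.Agent.Lib.Core.Frattini

set_option autoImplicit false

namespace H11.SPL

open MulAction Subgroup

variable {G V : Type*} [Group G] [MulAction G V] [Finite G] [Finite V] {M : Subgroup G}
  {Δ : Set V}

namespace ML

theorem p2 (i : ℕ) : 2 ^ i ≡ 2 ^ (i % 2) [MOD 3] := by
  conv_lhs => rw [← Nat.div_add_mod i 2, pow_add, pow_mul]
  exact (((show 2 ^ 2 ≡ 1 [MOD 3] by decide).pow _).mul_right _).trans (by rw [one_pow, one_mul])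

theorem cong {Y S : Subgroup G} (hY : IsPGroup 3 Y) (hn : Y ≤ normalizer (S : Set G)) :
    Nat.card S ≡ Nat.card ↥(S ⊓ centralizer (Y : Set G)) [MOD 3] := by
  haveI := Fact.mk Nat.prime_three
  let φ : Y →* MulAut S := S.normalizerMonoidHom.comp (Subgroup.inclusion hn)
  let _ : MulAction Y S := MulAction.compHom S φ
  have h := hY.card_modEq_card_fixedPoints S
  have e : Nat.card (fixedPoints Y S) = Nat.card ↥(S ⊓ centralizer (Y : Set G)) := by
    refine Nat.card_congr ⟨fun x => ⟨x.1.1, x.1.2, fun y hy => ?_⟩,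
      fun x => ⟨⟨x.1, x.2.1⟩, fun y => Subtype.ext ?_⟩, fun _ => rfl, fun _ => rfl⟩
    · have := congrArg Subtype.val (x.2 ⟨y, hy⟩)
      exact mul_inv_eq_iff_eq_mul.1 this
    · exact mul_inv_eq_iff_eq_mul.2 (x.2.2 y y.2)
  rwa [e] at h

omit [Finite G] in
theorem card_conj {W : Subgroup G} {s : G} (hs : s ∈ normalizer (W : Set G)) (y : G) :
    Nat.card ↥(W ⊓ centralizer {s * y * s⁻¹}) = Nat.card ↥(W ⊓ centralizer {y}) := by
  have key : ∀ {s y z : G}, s ∈ normalizer (W : Set G) → z = s * y * s⁻¹ →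
      ∀ a ∈ W ⊓ centralizer {y}, s * a * s⁻¹ ∈ W ⊓ centralizer {z} := by
    rintro s y _ hs rfl a ha
    refine ⟨(mem_normalizer_iff.1 hs a).1 ha.1, mem_centralizer_singleton_iff.2 ?_⟩
    rw [conj_mul, conj_mul, mem_centralizer_singleton_iff.1 ha.2]
  exact Nat.card_congr ⟨fun a => ⟨s⁻¹ * a * s⁻¹⁻¹, key (inv_mem hs) (by group) _ a.2⟩,
    fun a => ⟨s * a * s⁻¹, key hs rfl _ a.2⟩, fun a => Subtype.ext (by simp only; group),
    fun a => Subtype.ext (by simp only; group)⟩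

theorem key {R W : Subgroup G} (hR : R ≤ M) (c9 : Nat.card R = 9) (e3 : ∀ r ∈ R, r ^ 3 = 1)
    (cj : ∀ r ∈ R, ∀ r' ∈ R, r ≠ 1 → r' ≠ 1 → ∃ n ∈ M, n * r * n⁻¹ = r') (hW : IsPGroup 2 W)
    (hn : M ≤ normalizer (W : Set G)) :
    ∃ k, Nat.card W = Nat.card ↥(W ⊓ centralizer (R : Set G)) * 2 ^ (8 * k) := by
  classical
  haveI := Fact.mk Nat.prime_two
  haveI := Fact.mk Nat.prime_three
  haveI := Fintype.ofFinite R
  have := hW.isNilpotent
  have cm : ∀ x y : R, x * y = y * x :=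
    (IsPGroup.isMulCommutative_of_card_eq_prime_sq (p := 3) c9).is_comm.comm
  have c8 : Fintype.card {r : R // r ≠ 1} = 8 := by
    rw [Fintype.card_subtype_compl, ← Nat.card_eq_fintype_card, c9, Fintype.card_unique]
  obtain ⟨x⟩ : Nonempty {r : R // r ≠ 1} := Fintype.card_pos_iff.1 (by omega)
  have ne : ∀ r : {r : R // r ≠ 1}, (r.1 : G) ≠ 1 := fun r e => r.2 (Subtype.ext e)
  obtain ⟨n, hn'⟩ := hW.exists_card_eq
  obtain ⟨i, hi⟩ := (hW.to_inf_left (K := centralizer {(x.1 : G)})).exists_card_eq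
  obtain ⟨j, hj⟩ := (hW.to_inf_left (K := centralizer (R : Set G))).exists_card_eq
  have w := H53.Wielandt.general R W (hR.trans hn) inferInstance
    (by rw [c9, hn']; exact Nat.Coprime.pow_right _ (by norm_num))
    (fun r : {r : R // r ≠ 1} => zpowers (r.1 : G))
    (Sum.elim (fun _ => R) fun _ => ⊥ : Fin 2 ⊕ Fin 6 → Subgroup G)
    (fun r => zpowers_le.2 r.1.2) (by rintro (_ | _) <;> simp) fun g hg => by
      by_cases g1 : g = 1
      · subst g1
        rw [Nat.card_congr (Equiv.subtypeUnivEquiv fun _ => one_mem _),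
          Nat.card_congr (Equiv.subtypeUnivEquiv fun _ => one_mem _), Nat.card_eq_fintype_card, c8]
        simp
      have inv : ∀ r ∈ R, r ^ 2 = r⁻¹ := fun r hr =>
        eq_inv_of_mul_eq_one_left ((pow_succ r 2).symm.trans (e3 r hr))
      refine (Nat.card_eq_two_iff.2 ⟨⟨⟨⟨g, hg⟩, fun e => g1 (congrArg Subtype.val e)⟩, mem_zpowers g⟩,
        ⟨⟨⟨g⁻¹, inv_mem hg⟩, fun e => g1 (inv_eq_one.1 (congrArg Subtype.val e))⟩,
          by simp⟩, fun e => g1 ?_, Set.eq_univ_of_forall fun r => ?_⟩).trans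
        (Nat.card_eq_two_iff.2 ⟨⟨.inl 0, hg⟩, ⟨.inl 1, hg⟩,
          fun e => absurd (Sum.inl.inj (congrArg Subtype.val e)) Fin.zero_ne_one,
          Set.eq_univ_of_forall ?_⟩).symm
      · have e' : g = g⁻¹ := congrArg (fun r => (r.1.1 : G)) e
        have := e3 g hg
        rwa [pow_succ', inv g hg, ← e', ← pow_two, inv g hg, inv_eq_one] at this
      · obtain ⟨k, hk⟩ := (mem_powers_iff_mem_zpowers.2 r.2 : ∃ k : ℕ, (r.1.1 : G) ^ k = g)
        beta_reduce at hk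
        rw [pow_eq_pow_mod k (e3 _ r.1.1.2)] at hk
        have : k % 3 = 0 ∨ k % 3 = 1 ∨ k % 3 = 2 := by omega
        rcases this with e | e | e <;> rw [e] at hk
        · exact absurd (hk.symm.trans (pow_zero _)) g1
        · exact Or.inl (Subtype.ext (Subtype.ext (Subtype.ext ((pow_one _).symm.trans hk))))
        · exact Or.inr (Subtype.ext (Subtype.ext (Subtype.ext
            (inv_eq_iff_eq_inv.1 ((inv _ r.1.1.2).symm.trans hk)))))
      · rintro ⟨a | a, ha⟩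
        · fin_cases a <;> simp
        · exact absurd (mem_bot.1 ha) g1
  have hr : ∀ r : {r : R // r ≠ 1}, Nat.card ↥(W ⊓ centralizer (zpowers (r.1 : G) : Set G)) ^
      Nat.card (zpowers (r.1 : G)) = (2 ^ i) ^ 3 := fun r => by
    obtain ⟨s, hs, e⟩ := cj _ x.1.2 _ r.1.2 (ne x) (ne r)
    rw [Nat.card_zpowers, orderOf_eq_prime (e3 _ r.1.2) (ne r), zpowers_eq_closure,
      centralizer_closure, ← e, card_conj (hn hs), hi]
  have h0 : W ⊓ centralizer ((⊥ : Subgroup G) : Set G) = W :=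
    inf_eq_left.2 fun a _ b hb => by rw [mem_bot.1 hb, one_mul, mul_one]
  simp only [hr, Fintype.prod_sum_type, Sum.elim_inl, Sum.elim_inr, h0, hj, c9, hn', card_bot,
    Finset.prod_const, Finset.card_univ, c8, Fintype.card_fin, ← pow_mul, ← pow_add] at w
  have w' := Nat.pow_right_injective le_rfl w
  have cg := cong (Y := R) (S := W ⊓ centralizer {(x.1 : G)}) (IsPGroup.of_card (n := 2) c9)
    (le_normalizer_iff.2 fun r hr a ha => ⟨(mem_normalizer_iff.1 (hn (hR hr)) a).1 ha.1,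
      mem_centralizer_singleton_iff.2 (by
        have c : Commute r (x.1 : G) := congrArg Subtype.val (cm ⟨r, hr⟩ x.1)
        exact ((c.mul_left (mem_centralizer_singleton_iff.1 ha.2)).mul_left c.inv_left).eq)⟩)
  rw [inf_assoc, inf_eq_right.2 (centralizer_le (Set.singleton_subset_iff.2 x.1.2)), hi, hj] at cg
  have cg' := ((p2 i).symm.trans cg).trans (p2 j)
  have le : j ≤ n := (Nat.pow_le_pow_iff_right one_lt_two).1 (by
    rw [← hj, ← hn']; exact card_le_of_le inf_le_left)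
  have par : i % 2 = j % 2 := by
    rcases Nat.mod_two_eq_zero_or_one i with e | e <;>
      rcases Nat.mod_two_eq_zero_or_one j with e' | e' <;> rw [e, e'] <;> rw [e, e'] at cg' <;>
      exact absurd cg' (by decide)
  exact ⟨(i - j) / 2, by rw [hn', hj, ← pow_add]; congr 1; omega⟩

omit [Finite G] [Finite V] in
theorem nK (h : Two M Δ) : M ≤ normalizer (Kr M Δ : Set G) :=
  le_normalizer_iff.2 fun g hg k hk => mem_Kr.2 ⟨mul_mem (mul_mem hg (mem_Kr.1 hk).1) (inv_mem hg),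
    fun x hx => by
      rw [mul_smul, mul_smul, (mem_Kr.1 hk).2 _ (h.inv _ (inv_mem hg) x hx), smul_inv_smul]⟩

theorem exists_R (h : Bad M Δ) (hK : IsPGroup 2 (Kr M Δ)) {a : V} (ha : a ∈ Δ) :
    ∃ R ≤ M, Nat.card R = 9 ∧ (∀ r ∈ R, r ^ 3 = 1) ∧ (∀ b ∈ Δ, ∃ r ∈ R, r • a = b) ∧
      ∀ r ∈ R, ∀ r' ∈ R, r ≠ 1 → r' ≠ 1 → ∃ n ∈ M, n * r * n⁻¹ = r' := by
  haveI := Fact.mk Nat.prime_two
  haveI := Fact.mk Nat.prime_three
  obtain ⟨Y, YM, nY, KY, tY, rY, eY⟩ := h.reg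
  have ho : orbit Y a = Δ := Set.ext fun x =>
    ⟨by rintro ⟨y, rfl⟩; exact h.inv y (YM y.2) a ha,
      fun hx => (tY a ha x hx).elim fun y hy => ⟨⟨y, hy.1⟩, hy.2⟩⟩
  obtain ⟨R₀, c0⟩ := Sylow.exists_subgroup_card_pow_prime 3 (n := 2) (G := Y) (by
    have := (stabilizer Y a).index_dvd_card
    rwa [index_stabilizer, ho, h.card] at this)
  have RY : R₀.map Y.subtype ≤ Y := map_subtype_le _
  have c9 : Nat.card (R₀.map Y.subtype) = 9 := by
    rw [card_map_of_injective Y.subtype_injective, c0]; norm_num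
  generalize R₀.map Y.subtype = R at RY c9
  have p3 : IsPGroup 3 R := IsPGroup.of_card (n := 2) c9
  have dj : ∀ r ∈ R, Tr Δ r → r = 1 := fun r hr t =>
    disjoint_def.1 (IsPGroup.disjoint_of_ne 3 2 (by norm_num) _ _ p3 hK) hr
      (mem_Kr.2 ⟨YM (RY hr), t⟩)
  have inj : ∀ r ∈ R, ∀ r' ∈ R, r • a = r' • a → r = r' := fun r hr r' hr' e =>
    (inv_mul_eq_one.1 (dj _ (mul_mem (inv_mem hr') hr) (rY _ (RY (mul_mem (inv_mem hr') hr)) a ha
      (by rw [mul_smul, e, inv_smul_smul])))).symm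
  have tR : ∀ b ∈ Δ, ∃ r ∈ R, r • a = b := by
    have : (fun r : G => r • a) '' R = Δ := by
      refine Set.eq_of_subset_of_ncard_le ?_ ?_
      · rintro _ ⟨r, hr, rfl⟩
        exact h.inv r (YM (RY hr)) a ha
      · rw [Set.InjOn.ncard_image fun r hr r' hr' => inj r hr r' hr', h.card,
          ← Nat.card_coe_set_eq]
        exact c9.ge
    exact fun b hb => this.ge hb
  have YR : Y ≤ Kr M Δ ⊔ R := fun y hy => by
    obtain ⟨r, hr, e⟩ := tR _ (h.inv y (YM hy) a ha)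
    have h1 := mul_mem (inv_mem (RY hr)) hy
    rw [← mul_inv_cancel_left r y]
    exact mul_mem (mem_sup_right hr) (mem_sup_left (mem_Kr.2 ⟨YM h1,
      rY _ h1 a ha (by rw [mul_smul, ← e, inv_smul_smul])⟩))
  refine ⟨R, RY.trans YM, c9, fun r hr => dj _ (pow_mem hr 3) (eY r (RY hr)), tR,
    fun r hr r' hr' r1 r1' => ?_⟩
  have mv : ∀ r ∈ R, r ≠ 1 → a ≠ r • a := fun r hr r1 e =>
    r1 (inj r hr 1 (one_mem _) (by rw [one_smul, ← e]))
  obtain ⟨g, hg, g1, g2⟩ := h.two a ha _ (h.inv r (YM (RY hr)) a ha) a ha _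
    (h.inv r' (YM (RY hr')) a ha) (mv r hr r1) (mv r' hr' r1')
  obtain ⟨k, hk⟩ := hK.exists_card_eq
  have := p3.isNilpotent
  obtain ⟨n, hn, nR⟩ := H2.exists_mul_mem_normalizer (A := R) (N := Kr M Δ) (g := g)
    ((RY.trans YM).trans (nK h.toTwo))
    (by rw [c9, hk]; exact Nat.Coprime.pow_right _ (by norm_num)) (Or.inl inferInstance)
    fun x hx => YR ((mem_normalizer_iff''.1 (nY hg) x).1 (RY hx))
  obtain ⟨nM, nT⟩ := mem_Kr.1 hn
  refine ⟨g * n, mul_mem hg nM, inj _ ((mem_normalizer_iff.1 nR r).1 hr) _ hr' ?_⟩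
  have e : (g * n)⁻¹ • a = a := inv_smul_eq_iff.2 (by rw [mul_smul, nT a ha, g1])
  rw [mul_smul, mul_smul, e, mul_smul, nT _ (h.inv r (YM (RY hr)) a ha), g2]

theorem cent {R W : Subgroup G} (e : Nat.card W = Nat.card ↥(W ⊓ centralizer (R : Set G)) * 2 ^ (8 * 0))
    {r w : G} (hr : r ∈ R) (hw : w ∈ W) : r * w = w * r :=
  ((eq_of_le_of_card_ge (inf_le_left (b := centralizer (R : Set G)))
    (by rw [e]; simp)).ge hw).2 r hr

end ML

open ML

/-- the `3²` centralises every invariant 2-group of order less than `2⁸` -/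
theorem Bad.ml1 (h : Bad M Δ) (hK : IsPGroup 2 (Kr M Δ)) {W : Subgroup G} (hW : IsPGroup 2 W)
    (hn : M ≤ normalizer (W : Set G)) (hc : Nat.card W < 2 ^ 8) {a b : V} (ha : a ∈ Δ)
    (hb : b ∈ Δ) : ∃ r ∈ M, r • a = b ∧ ∀ w ∈ W, r * w = w * r := by
  obtain ⟨R, RM, c9, e3, tR, cj⟩ := exists_R h hK ha
  obtain ⟨r, hr, e⟩ := tR b hb
  obtain ⟨k, hk⟩ := key RM c9 e3 cj hW hn
  have := (Nat.pow_lt_pow_iff_right one_lt_two).1
    ((Nat.le_of_dvd Nat.card_pos (Dvd.intro_left _ hk.symm)).trans_lt hc)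
  obtain rfl : k = 0 := by omega
  exact ⟨r, RM hr, e, fun w hw => cent hk hr hw⟩

/-- the `3²` centralises the squares of the kernel if that has order less than `2¹⁶` -/
theorem Bad.ml2 (h : Bad M Δ) (hK : IsPGroup 2 (Kr M Δ)) (hc : Nat.card (Kr M Δ) < 2 ^ 16)
    {a b : V} (ha : a ∈ Δ) (hb : b ∈ Δ) :
    ∃ r ∈ M, r • a = b ∧ ∀ w ∈ Kr M Δ, r * (w * w) = w * w * r := by
  haveI := Fact.mk Nat.prime_two
  obtain ⟨R, RM, c9, e3, tR, cj⟩ := exists_R h hK ha
  obtain ⟨r, hr, e⟩ := tR b hb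
  have hn := nK h.toTwo
  generalize Kr M Δ = K at hK hc hn
  obtain ⟨k, hk⟩ := key RM c9 e3 cj hK hn
  have ΦK : (frattini K).map K.subtype ≤ K := map_subtype_le _
  obtain ⟨l, hl⟩ := key RM c9 e3 cj (hK.to_le ΦK)
    (H2.le_normalizer_map_subtype_of_characteristic hn (frattini K))
  refine ⟨r, RM hr, e, fun w hw => ?_⟩
  rcases Nat.eq_zero_or_pos l with rfl | l0
  · exact cent hl hr ⟨⟨w, hw⟩ ^ 2, H1.pow_mem_frattini hK _, pow_two w⟩
  rcases Nat.eq_zero_or_pos k with rfl | k0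
  · exact cent hk hr (mul_mem hw hw)
  have := (Nat.pow_lt_pow_iff_right one_lt_two).1
    ((Nat.le_of_dvd Nat.card_pos (Dvd.intro_left _ hk.symm)).trans_lt hc)
  have h1 := H1.card_sup_mul_card_inf_of_le_normalizer (H := K ⊓ centralizer (R : Set G))
    (inf_le_left.trans (H2.le_normalizer_map_subtype_of_characteristic le_normalizer (frattini K)))
  rw [inf_right_comm, inf_eq_right.2 ΦK, hl, mul_left_comm, mul_comm] at h1
  have h2 := H2.eq_of_sup_frattini (inf_le_left (b := centralizer (R : Set G)))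
    (eq_of_le_of_card_ge (sup_le ΦK inf_le_left) (by
      rw [sup_comm, Nat.eq_of_mul_eq_mul_left Nat.card_pos h1]
      exact hk.le.trans (Nat.mul_le_mul_left _ (Nat.pow_le_pow_right (by norm_num) (by omega))))).ge
  exact (h2.ge (mul_mem hw hw)).2 r hr

end H11.SPL
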