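import Cfsg.Agent.Lib.SPL.Defs
import Cfsg.Agent.Lib.HK.Defs2
import Cfsg.Agent.Lib.Core.MinNormal
import Cfsg.Agent.Lib.Zsig.Basic

set_option autoImplicit false

namespace H11.SPL

open MulAction Subgroup

namespace RK2

theorem catalan {r k m : ℕ} (hr : r.Prime) (hk : 2 ≤ k) (hm : 1 ≤ m) (h : r ^ k = 2 ^ m + 1) :
    r = 3 ∧ k = 2 := by
  have h2 : 2 ∣ 2 ^ m := dvd_pow_self 2 (by omega)
  have hr2 : r ≠ 2 := by
    rintro rfl
    have : 2 ∣ 2 ^ k := dvd_pow_self 2 (by omega)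
    omega
  have ho := hr.eq_two_or_odd.resolve_left hr2
  by_cases hex : k = 2 ∧ ∃ j : ℕ, r + 1 = 2 ^ j
  · obtain ⟨rfl, j, hj⟩ := hex
    obtain ⟨s, rfl⟩ : ∃ s, r = s + 1 := ⟨r - 1, by have := hr.pos; omega⟩
    obtain ⟨i, -, hi⟩ := (Nat.dvd_prime_pow Nat.prime_two).1
      (show s ∣ 2 ^ m from ⟨s + 2, by nlinarith⟩)
    refine ⟨?_, rfl⟩
    rcases i with _ | _ | i
    · rw [pow_zero] at hi; omega
    · norm_num at hi; omega
    · have := hr.two_le
      rcases j with _ | _ | j <;> simp only [pow_succ, pow_zero] at hi hj <;> omega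
  obtain ⟨l, hl, h1, h3⟩ := H69.Zsig.zsigmondy hr.one_lt hk (fun e => hr2 e.1) hex
  rw [h, Nat.add_sub_cancel] at h1
  obtain rfl := (Nat.prime_dvd_prime_iff_eq hl Nat.prime_two).1 (hl.dvd_of_dvd_pow h1)
  exact (h3 1 one_pos hk (by rw [pow_one]; omega)).elim

section Nine
variable {W : Type*} [CommGroup W] {e : W} {φ ψ : W →* W}

theorem fixz (h : φ e = e) {z : W} (hz : z ∈ zpowers e) : φ z = z := by
  obtain ⟨i, rfl⟩ := hz
  rw [map_zpow, h]

theorem dich [Finite W] (c9 : Nat.card W = 9) (e3 : ∀ w : W, w ^ 3 = 1) (e1 : e ≠ 1)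
    (hi : Function.Injective φ) (h : φ e = e) :
    (∀ x, ∃ z ∈ zpowers e, φ x = z * x) ∨ ∀ x, ∃ z ∈ zpowers e, φ x = z * x⁻¹ := by
  haveI := Fact.mk Nat.prime_three
  have cz : Nat.card (zpowers e) = 3 := by rw [Nat.card_zpowers, orderOf_eq_prime (e3 e) e1]
  obtain ⟨c, hc⟩ : ∃ c, c ∉ zpowers e := by
    by_contra hc
    push Not at hc
    rw [show zpowers e = ⊤ from eq_top_iff.2 fun x _ => hc x, card_top] at cz
    omega
  have ht : zpowers e ⊔ zpowers c = ⊤ := by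
    obtain ⟨i, hi, hW⟩ := (Nat.dvd_prime_pow Nat.prime_three (m := 2)).1
      (c9 ▸ (zpowers e ⊔ zpowers c).card_subgroup_dvd_card)
    by_contra hne
    have h1 : i ≠ 2 := fun e => hne ((card_eq_iff_eq_top _).1 (by rw [hW, e, c9]; norm_num))
    have h2 : Nat.card (zpowers e ⊔ zpowers c : Subgroup W) ≤ Nat.card (zpowers e) := by
      rw [hW, cz]
      exact (Nat.pow_le_pow_right (by norm_num) (show i ≤ 1 by omega)).trans (by norm_num)
    exact hc ((eq_of_le_of_card_ge le_sup_left h2).ge (mem_sup_right (mem_zpowers c)))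
  have tri : ∀ x, ∃ z ∈ zpowers e, x = z ∨ x = z * c ∨ x = z * c⁻¹ := fun x => by
    obtain ⟨z, hz, y, hy, rfl⟩ := mem_sup.1 (ht.ge (mem_top x))
    obtain ⟨k, rfl⟩ := (mem_powers_iff_mem_zpowers.2 hy : ∃ k : ℕ, c ^ k = y)
    refine ⟨z, hz, ?_⟩
    beta_reduce
    rw [pow_eq_pow_mod k (e3 c)]
    have : k % 3 = 0 ∨ k % 3 = 1 ∨ k % 3 = 2 := by omega
    rcases this with e | e | e <;> rw [e]
    · simp
    · simp
    · exact Or.inr (Or.inr (by
        rw [show c ^ 2 = c⁻¹ from eq_inv_of_mul_eq_one_left ((pow_succ c 2).symm.trans (e3 c))]))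
  obtain ⟨w, hw, e | e | e⟩ := tri (φ c)
  · exact absurd (hi (e.trans (fixz h hw).symm) ▸ hw) hc
  · refine Or.inl fun x => ?_
    obtain ⟨z, hz, rfl | rfl | rfl⟩ := tri x
    · exact ⟨1, one_mem _, by rw [fixz h hz, one_mul]⟩
    · exact ⟨w, hw, by rw [map_mul, fixz h hz, e, mul_left_comm]⟩
    · exact ⟨w⁻¹, inv_mem hw, by rw [map_mul, map_inv, fixz h hz, e, mul_inv, mul_left_comm]⟩
  · refine Or.inr fun x => ?_
    obtain ⟨z, hz, rfl | rfl | rfl⟩ := tri x
    · exact ⟨x * x, mul_mem hz hz, by rw [fixz h hz, mul_inv_cancel_right]⟩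
    · exact ⟨z * z * w, mul_mem (mul_mem hz hz) hw, by
        rw [map_mul, fixz h hz, e, mul_inv, mul_mul_mul_comm, mul_inv_cancel_right]⟩
    · exact ⟨z * z * w⁻¹, mul_mem (mul_mem hz hz) (inv_mem hw), by
        rw [map_mul, map_inv, fixz h hz, e, mul_inv, mul_inv, mul_mul_mul_comm,
          mul_inv_cancel_right]⟩

theorem cube (e3 : ∀ w : W, w ^ 3 = 1) (h : φ e = e) (p : ∀ x, ∃ z ∈ zpowers e, φ x = z * x)
    (x : W) : φ (φ (φ x)) = x := by
  obtain ⟨z, hz, e⟩ := p x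
  simp only [e, map_mul, fixz h hz, ← mul_assoc]
  rw [← pow_three', e3, one_mul]

theorem square (h : φ e = e) (p : ∀ x, ∃ z ∈ zpowers e, φ x = z * x⁻¹) (x : W) : φ (φ x) = x := by
  obtain ⟨z, hz, e⟩ := p x
  rw [e, map_mul, map_inv, fixz h hz, e, mul_inv, mul_inv_cancel_left, inv_inv]

theorem mm (h : φ e = e) (p : ∀ x, ∃ z ∈ zpowers e, φ x = z * x⁻¹)
    (q : ∀ x, ∃ z ∈ zpowers e, ψ x = z * x⁻¹) (x : W) : ∃ z ∈ zpowers e, φ (ψ x) = z * x := by
  obtain ⟨z, hz, e⟩ := p x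
  obtain ⟨w, hw, e'⟩ := q x
  exact ⟨w * z⁻¹, mul_mem hw (inv_mem hz), by
    rw [e', map_mul, map_inv, fixz h hw, e, mul_inv, inv_inv, mul_assoc]⟩

theorem pm (e3 : ∀ w : W, w ^ 3 = 1) (h : φ e = e) (h' : ψ e = e)
    (p : ∀ x, ∃ z ∈ zpowers e, φ x = z * x) (q : ∀ x, ∃ z ∈ zpowers e, ψ x = z * x⁻¹)
    (c : ∀ x, φ (ψ x) = ψ (φ x)) (x : W) : φ x = x := by
  obtain ⟨z, hz, e⟩ := p x
  obtain ⟨w, hw, e'⟩ := q x
  have := c x
  rw [e, e', map_mul, map_mul, map_inv, fixz h hw, fixz h' hz, e, e', mul_inv, mul_left_comm,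
    mul_left_inj, inv_eq_iff_mul_eq_one] at this
  have h1 := e3 z
  rw [pow_three', this, one_mul] at h1
  rw [e, h1, one_mul]

end Nine

variable {G Ω : Type*} [Group G] [MulAction G Ω] {E : Subgroup G} [E.Normal]

/-- conjugation on a normal subgroup -/
abbrev κ (E : Subgroup G) [E.Normal] (g : G) : E →* E := (MulAut.conjNormal g : MulAut E).toMonoidHom

theorem κ_mul (g k : G) (w : E) : κ E (g * k) w = κ E g (κ E k w) := Subtype.ext (by
  show g * k * w * (g * k)⁻¹ = g * (k * w * k⁻¹) * g⁻¹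
  group)

theorem κ_smul {g : G} {a : Ω} (h : g • a = a) (w : E) : (κ E g w : G) • a = g • (w : G) • a := by
  show (g * w * g⁻¹) • a = _
  rw [mul_smul, mul_smul, inv_smul_eq_iff.2 h.symm]

end RK2

open RK2 in
/-- the affine non-regular case is `3² : SD₁₆` -/
theorem top_bad {G Ω : Type*} [Group G] [MulAction G Ω] [Finite G] [Finite Ω] {A : Subgroup G}
    {a : Ω} (h : H51.HK.Top A a) (h2 : IsPGroup 2 A) (hs : ¬ H51.HK.NoSolv G)
    (hn : ∃ u ∈ A, ∃ b : Ω, b ≠ a ∧ u • b = b ∧ u ≠ 1) :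
    Bad (⊤ : Subgroup G) (Set.univ : Set Ω) := by
  have two : ∀ {a b c d : Ω}, a ≠ b → c ≠ d → ∃ g : G, g • a = c ∧ g • b = d :=
    is_two_pretransitive_iff.1 h.two
  obtain ⟨u, hu, b, hb, ub, u1⟩ := hn
  have trs : ∀ x y : Ω, ∃ g : G, g • x = y := fun x y => by
    by_cases e : x = y
    · exact ⟨1, by rw [one_smul, e]⟩
    · exact (two e (Ne.symm e)).imp fun _ => And.left
  unfold H51.HK.NoSolv at hs
  push Not at hs
  obtain ⟨M, nM, sM, M1⟩ := hs
  obtain ⟨E, mE, -, cE, r, hr, -, er, pE⟩ := H3.exists_normal_elementary_le M M1 sM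
  haveI : E.Normal := mE.normal
  haveI := Fact.mk hr
  haveI := Fact.mk Nat.prime_two
  have cm : ∀ x y : E, x * y = y * x := cE.is_comm.comm
  letI : CommGroup E := { (inferInstance : Group E) with mul_comm := cm }
  have tE : ∀ x y : Ω, ∃ w : E, (w : G) • x = y := by
    obtain ⟨w, hw⟩ := (ne_bot_iff_exists_ne_one).1 mE.ne_bot
    obtain ⟨p, hp⟩ : ∃ p : Ω, (w : G) • p ≠ p := by
      by_contra hc
      push Not at hc
      exact hw (Subtype.ext (h.faith _ hc))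
    intro x y
    by_cases e : y = x
    · exact ⟨1, by simp [e]⟩
    obtain ⟨g, g1, g2⟩ := two hp e
    refine ⟨κ E g w, ?_⟩
    show (g * w * g⁻¹) • x = y
    rw [mul_smul, mul_smul, ← g2, inv_smul_smul, g1]
  have rE : ∀ (x : Ω) (w : E), (w : G) • x = x → w = 1 := fun x w e =>
    Subtype.ext (h.faith _ fun y => by
      obtain ⟨v, rfl⟩ := tE x y
      rw [← mul_smul, ← coe_mul, cm, coe_mul, mul_smul, e])
  have iE : ∀ (x : Ω) (v w : E), (v : G) • x = (w : G) • x → v = w := fun x v w e =>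
    (inv_mul_eq_one.1 (rE x (w⁻¹ * v) (by
      rw [coe_mul, mul_smul, e, coe_inv, inv_smul_smul]))).symm
  have cΩ : Nat.card E = Nat.card Ω :=
    Nat.card_eq_of_bijective (fun w : E => (w : G) • a) ⟨iE a, tE a⟩
  have one : ∀ (x : Ω) (g : G), g • x = x → (∀ w : E, κ E g w = w) → g = 1 := fun x g e c =>
    h.faith g fun y => by
      obtain ⟨v, rfl⟩ := tE x y
      rw [← κ_smul e, c]
  have fx : ∀ (x : Ω) (g : G) (w : E), g • x = x → g • (w : G) • x = (w : G) • x → κ E g w = w :=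
    fun x g w e e' => iE x _ _ ((κ_smul e w).trans e')
  obtain ⟨k, hk⟩ := pE.exists_card_eq
  obtain ⟨m, hm⟩ := h2.card_orbit b
  have ho : orbit A b = {a}ᶜ := by
    ext x
    exact ⟨by
      rintro ⟨v, rfl⟩ e
      exact hb (smul_left_cancel (v : G) ((show (v : G) • b = a from e).trans (h.fix v v.2).symm)),
      fun hx => (h.tr b x hb hx).elim fun v hv => ⟨⟨v, hv.1⟩, hv.2⟩⟩
  have h3 := h.three
  rw [ho, Nat.card_coe_set_eq, Set.ncard_compl _ (Set.toFinite _) (Set.toFinite _),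
    Set.ncard_singleton] at hm
  obtain ⟨rfl, rfl⟩ : r = 3 ∧ k = 2 := by
    refine catalan (m := m) hr ?_ (Nat.pos_of_ne_zero (by rintro rfl; omega)) (by omega)
    by_contra hk2
    have hk1 : k = 1 := by
      rcases k with _ | _ | k
      · rw [pow_zero] at hk; omega
      · rfl
      · omega
    obtain ⟨e, rfl⟩ := tE a b
    haveI : Fact (Nat.card E).Prime := ⟨by rw [hk, hk1, pow_one]; exact hr⟩
    rcases ((κ E u).eqLocus (MonoidHom.id E)).eq_bot_or_eq_top_of_prime_card with e1 | e1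
    · have : e ∈ (κ E u).eqLocus (MonoidHom.id E) := fx a u e (h.fix u hu) ub
      rw [e1, mem_bot] at this
      exact hb (by simp [this])
    · exact u1 (one a u (h.fix u hu) fun w => e1.ge (mem_top w))
  have c9 : Nat.card E = 9 := hk
  have e3 : ∀ w : E, w ^ 3 = 1 := fun w => Subtype.ext (er w w.2)
  have dd := fun (g : G) (e : E) (e1 : e ≠ 1) =>
    dich (φ := κ E g) c9 e3 e1 (MulAut.conjNormal g : MulAut E).injective
  have c3 : ∀ (x : Ω) (g : G) (e : E), g • x = x → κ E g e = e →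
      (∀ y, ∃ z ∈ zpowers e, κ E g y = z * y) → g ^ 3 = 1 := fun x g e e1 e2 p =>
    one x _ ((stabilizer G x).pow_mem e1 3) fun w => by
      rw [pow_three, κ_mul, κ_mul, cube e3 e2 p]
  have s2 : ∀ (x : Ω) (g : G) (e : E), g • x = x → κ E g e = e →
      (∀ y, ∃ z ∈ zpowers e, κ E g y = z * y⁻¹) → g * g = 1 := fun x g e e1 e2 p =>
    one x _ ((stabilizer G x).mul_mem e1 e1) fun w => by rw [κ_mul, square e2 p]
  have a3 : ∀ g ∈ A, g ^ 3 = 1 → g = 1 := fun g hg e => by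
    obtain ⟨j, hj⟩ := h2 ⟨g, hg⟩
    exact orderOf_eq_one_iff.1 (Nat.eq_one_of_dvd_coprimes
      (Nat.Coprime.pow_right j (by norm_num : Nat.Coprime 3 2)) (orderOf_dvd_of_pow_eq_one e)
      (orderOf_dvd_of_pow_eq_one (congrArg Subtype.val hj)))
  have odd0 : ∀ g : G, g • a = a → Odd (orderOf g) → g = 1 := by
    intro g ga og
    by_contra g1
    obtain ⟨l, hl, hd⟩ := Nat.exists_prime_and_dvd (mt orderOf_eq_one_iff.1 g1)
    obtain ⟨t, ta, ot⟩ : ∃ t : G, t • a = a ∧ orderOf t = l :=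
      ⟨g ^ (orderOf g / l), (stabilizer G a).pow_mem ga _,
        orderOf_pow_orderOf_div (orderOf_pos g).ne' hd⟩
    have l2 : l ≠ 2 := by
      rintro rfl
      exact og.not_two_dvd_nat hd
    haveI := Fact.mk hl
    obtain ⟨c, ca, tc⟩ : ∃ c, c ≠ a ∧ t • c = c := by
      by_contra hc
      push Not at hc
      have hP : IsPGroup l (zpowers t) := IsPGroup.of_card (n := 1) (by
        rw [Nat.card_zpowers, ot, pow_one])
      have h4 := hP.card_modEq_card_fixedPoints Ω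
      have h5 : fixedPoints (zpowers t) Ω = {a} := by
        ext x
        refine ⟨fun hx => by_contra fun e => hc x e (hx ⟨t, mem_zpowers t⟩), ?_⟩
        rintro rfl ⟨_, i, rfl⟩
        exact (stabilizer G x).zpow_mem ta i
      rw [h5, ← cΩ, c9, Nat.card_unique] at h4
      have h6 : l ∣ 2 ^ 3 := (Nat.modEq_iff_dvd' (by norm_num)).1 h4.symm
      exact l2 ((Nat.prime_dvd_prime_iff_eq hl Nat.prime_two).1 (hl.dvd_of_dvd_pow h6))
    obtain ⟨v, hv, vb⟩ := h.tr b c hb ca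
    obtain ⟨σ, σA, σc, σ1⟩ : ∃ σ ∈ A, σ • c = c ∧ σ ≠ 1 :=
      ⟨v * u * v⁻¹, mul_mem (mul_mem hv hu) (inv_mem hv), by
        rw [← vb, mul_smul, mul_smul, inv_smul_smul, ub], by simpa using u1⟩
    obtain ⟨e, rfl⟩ := tE a c
    have e1 : e ≠ 1 := fun e1 => ca (by simp [e1])
    have mA : ∀ s ∈ A, s • (e : G) • a = (e : G) • a → s ≠ 1 →
        ∀ y, ∃ z ∈ zpowers e, κ E s y = z * y⁻¹ := fun s hs sc s1 =>
      (dd s e e1 (fx a s e (h.fix s hs) sc)).resolve_left fun p =>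
        s1 (a3 s hs (c3 a s e (h.fix s hs) (fx a s e (h.fix s hs) sc) p))
    have te := fx a t e ta tc
    have σe := fx a σ e (h.fix σ σA) σc
    have t1 : t ≠ 1 := fun e => hl.ne_one (by rw [← ot, e, orderOf_one])
    have pt := (dd t e e1 te).resolve_right fun p => l2 ((Nat.prime_dvd_prime_iff_eq hl
      Nat.prime_two).1 (ot ▸ orderOf_dvd_of_pow_eq_one (by rw [pow_two, s2 a t e ta te p])))
    have mσ := mA σ σA σc σ1
    have σA' := h.nrm t ta σ σA
    have σc' : (t * σ * t⁻¹) • (e : G) • a = (e : G) • a := by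
      rw [mul_smul, mul_smul, inv_smul_eq_iff.2 tc.symm, σc, tc]
    have hm := mul_mem σA σA'
    have h7 := a3 _ hm (c3 a _ e (h.fix _ hm)
      (by rw [κ_mul, fx a _ e (h.fix _ σA') σc', σe]) fun y => by
        rw [κ_mul]; exact mm σe mσ (mA _ σA' σc' (by simpa using σ1)) y)
    have h8 : t * σ = σ * t := mul_inv_eq_iff_eq_mul.1
      (mul_left_cancel (h7.trans (s2 a σ e (h.fix σ σA) σe mσ).symm))
    exact t1 (one a t ta (pm e3 te σe pt mσ fun x => by rw [← κ_mul, ← κ_mul, h8]))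
  have odd : ∀ (x : Ω) (g : G), g • x = x → Odd (orderOf g) → g = 1 := fun x g e o => by
    obtain ⟨t, rfl⟩ := trs a x
    have := odd0 (t⁻¹ * g * t⁻¹⁻¹) (by rw [inv_inv, mul_smul, mul_smul, e, inv_smul_smul])
      (by rwa [← MulAut.conj_apply, MulEquiv.orderOf_eq])
    exact conj_eq_one_iff.1 this
  have tr1 : ∀ g : G, Tr (Set.univ : Set Ω) g ↔ g = 1 := fun g =>
    ⟨fun e => h.faith g fun x => e x trivial, fun e x _ => by rw [e, one_smul]⟩
  refine ⟨⟨fun _ _ _ _ => trivial, by rwa [Set.ncard_univ], fun b _ c _ b' _ c' _ e e' =>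
    (two e e').imp fun g hg => ⟨trivial, hg⟩⟩, by rw [Set.ncard_univ, ← cΩ, c9],
    fun x _ g _ e o => (tr1 g).2 (odd x g e o), fun x _ y _ xy g _ g' _ gx gy gx' gy' g1 g1' => ?_,
    fun x _ v _ v' _ vx vx' vv vv' f f' => ?_, E, le_top, by rw [normalizer_eq_top],
    fun g hg => by rw [(tr1 g).1 (mem_Kr.1 hg).2]; exact one_mem _,
    fun x _ y _ => (tE x y).elim fun w hw => ⟨w, w.2, hw⟩,
    fun y hy x _ e => (tr1 y).2 (congrArg Subtype.val (rE x ⟨y, hy⟩ e)),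
    fun y hy => (tr1 _).2 (er y hy)⟩
  · obtain ⟨e, rfl⟩ := tE x y
    have e1 : e ≠ 1 := fun e1 => xy (by simp [e1])
    have o3 : ∀ s : G, s • x = x → s ^ 3 = 1 → s = 1 := fun s sx e =>
      odd x s sx (Odd.of_dvd_nat (by decide) (orderOf_dvd_of_pow_eq_one e))
    have mA : ∀ s : G, s • x = x → s • (e : G) • x = (e : G) • x → ¬ Tr Set.univ s →
        ∀ y, ∃ z ∈ zpowers e, κ E s y = z * y⁻¹ := fun s sx sc s1 =>
      (dd s e e1 (fx x s e sx sc)).resolve_left fun p =>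
        s1 ((tr1 s).2 (o3 s sx (c3 x s e sx (fx x s e sx sc) p)))
    have ge := fx x g e gx gy
    have hx : (g * g') • x = x := by rw [mul_smul, gx', gx]
    have h7 := o3 _ hx (c3 x _ e hx (by rw [κ_mul, fx x _ e gx' gy', ge]) fun y => by
      rw [κ_mul]; exact mm ge (mA g gx gy g1) (mA g' gx' gy' g1') y)
    rw [mul_left_cancel (h7.trans (s2 x g e gx ge (mA g gx gy g1)).symm)]
    exact fun _ _ => rfl
  · have inv : ∀ v : G, v • x = x → Tr Set.univ (v * v) → (∀ b ∈ Set.univ, b ≠ x → v • b ≠ b) →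
        ∀ w : E, κ E v w = w⁻¹ := fun v vx vv f w => by
      refine eq_inv_of_mul_eq_one_right (rE x _ (by_contra fun e => f _ trivial e ?_))
      rw [← κ_smul vx, map_mul, ← κ_mul, (tr1 _).1 vv, mul_comm]
      exact congrArg (fun y : E => ((y * κ E v w : E) : G) • x)
        (Subtype.ext (show 1 * (w : G) * 1⁻¹ = w by simp))
    have h7 := one x (v * v') (by rw [mul_smul, vx', vx]) fun w => by
      rw [κ_mul, inv v' vx' vv' f', inv v vx vv f, inv_inv]
    rw [mul_left_cancel (h7.trans ((tr1 _).1 vv).symm)]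
    exact fun _ _ => rfl

end H11.SPL
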